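import Mathlib
import Cfsg.Agent.QuadMap.Squaring

/-!
A 2-group `T` with a normal subgroup `W` of index eight whose subgroups of small index contain the
central subgroup `D`: conjugates of `W` meeting `W` in small index stabilize `D`, and `W` is weakly
closed.
-/

set_option autoImplicit false

namespace CfsgLib.RudW34

variable {G : Type*} [Group G]

/-- The hypotheses on `T`, `W` and `D = W'`. -/
structure Setting (T W D : Subgroup G) : Prop where
  twoT : IsPGroup 2 T
  hWT : W ≤ T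
  hDW : D ≤ W
  conjW : ∀ t ∈ T, ∀ w ∈ W, t * w * t⁻¹ ∈ W
  central : ∀ d ∈ D, ∀ w ∈ W, w * d = d * w
  cent : ∀ t ∈ T, (∀ d ∈ D, t * d = d * t) → t ∈ W
  sq : ∀ w ∈ W, w * w ∈ D
  expD : ∀ d ∈ D, d * d = 1
  small : ∀ U ≤ W, U.relIndex W ≤ 16 → D ≤ U
  index : W.relIndex T = 8
  nonab : ∃ t₁ ∈ T, ∃ t₂ ∈ T, t₁ * t₂ * t₁⁻¹ * t₂⁻¹ ∉ W

theorem mem_comap_conj {H : Subgroup G} {g x : G} :
    x ∈ H.comap (MulAut.conj g).toMonoidHom ↔ g * x * g⁻¹ ∈ H := by
  simp [Subgroup.mem_comap]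

variable [Finite G] {T W D : Subgroup G}

namespace Setting

variable (h : Setting T W D)
include h

/-- A subgroup of index at most eight in `W` has all of `D` as products of its squares. -/
theorem le_closure_sq {A : Subgroup G} (hA : A ≤ W) (hi : A.relIndex W ≤ 8) :
    D ≤ Subgroup.closure ((fun x => x * x) '' (A : Set G)) := by
  set S := Subgroup.closure ((fun x => x * x) '' (A : Set G)) with hS
  intro d hd
  by_contra hdS
  have hdA : d ∈ A := h.small A hA (by omega) hd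
  have hsq : ∀ g : A, g * g ∈ S.subgroupOf A := fun g =>
    Subgroup.subset_closure ⟨g, g.2, rfl⟩
  obtain ⟨H, hSH, hH, hdH⟩ := CfsgLib.QuadMap.exists_index_two_not_mem (K := S.subgroupOf A) hsq
    (x := ⟨d, hdA⟩) (fun hh => hdS hh)
  have hle : H.map A.subtype ≤ A := Subgroup.map_subtype_le H
  have hrel : (H.map A.subtype).relIndex A = 2 := by
    rw [Subgroup.relIndex, Subgroup.subgroupOf,
      Subgroup.comap_map_eq_self_of_injective A.subtype_injective, hH]
  have h16 : (H.map A.subtype).relIndex W ≤ 16 := by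
    rw [← Subgroup.relIndex_mul_relIndex _ _ _ hle hA, hrel]
    omega
  obtain ⟨x, hx, e⟩ := h.small _ (hle.trans hA) h16 hd
  have hxe : x = ⟨d, hdA⟩ := Subtype.ext e
  exact hdH (hxe ▸ hx)

/-- If conjugation by `g` keeps a part of small index of `W` inside `W`, it keeps `D`. -/
theorem conj_mem_D {g : G} (hg : (W.comap (MulAut.conj g).toMonoidHom).relIndex W ≤ 8) {d : G}
    (hd : d ∈ D) : g * d * g⁻¹ ∈ D := by
  have hd' := h.le_closure_sq (A := W.comap (MulAut.conj g).toMonoidHom ⊓ W) inf_le_right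
    (by rwa [Subgroup.inf_relIndex_right]) hd
  have hle : Subgroup.closure ((fun x => x * x) ''
      ((W.comap (MulAut.conj g).toMonoidHom ⊓ W : Subgroup G) : Set G)) ≤
      D.comap (MulAut.conj g).toMonoidHom := by
    rw [Subgroup.closure_le]
    rintro _ ⟨x, hx, rfl⟩
    have := h.sq _ (mem_comap_conj.1 hx.1)
    exact mem_comap_conj.2 (by simpa [mul_assoc] using this)
  exact mem_comap_conj.1 (hle hd')

/-- A conjugate of an element of `W` in `T` lies in `W` as soon as `D` is kept. -/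
theorem mem_W_of_stab {g : G} (hg : ∀ d ∈ D, g * d * g⁻¹ ∈ D) {w : G} (hw : w ∈ W)
    (hT : g * w * g⁻¹ ∈ T) : g * w * g⁻¹ ∈ W := by
  refine h.cent _ hT fun d hd => ?_
  obtain ⟨e, he, rfl⟩ : ∃ e ∈ D, g * e * g⁻¹ = d := by
    have hs : (fun x => g * x * g⁻¹) '' (D : Set G) = D :=
      Set.eq_of_subset_of_ncard_le (by rintro _ ⟨x, hx, rfl⟩; exact hg x hx)
        (by rw [Set.ncard_image_of_injective]; intro a b e; simpa using e) (Set.toFinite _)
    rw [← SetLike.mem_coe, ← hs] at hd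
    exact hd
  have := h.central e he w hw
  calc g * w * g⁻¹ * (g * e * g⁻¹) = g * (w * e) * g⁻¹ := by group
    _ = _ := by rw [this]; group

/-- `W` is weakly closed in `T`. -/
theorem weak {g : G} (hg : ∀ w ∈ W, g * w * g⁻¹ ∈ T) : ∀ w ∈ W, g * w * g⁻¹ ∈ W := by
  refine fun w hw => h.mem_W_of_stab (fun d hd => h.conj_mem_D ?_ hd) hw (hg w hw)
  rw [Subgroup.relIndex_comap, ← h.index]
  refine Subgroup.relIndex_le_of_le_right ?_ (by rw [h.index]; norm_num)
  rintro _ ⟨x, hx, rfl⟩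
  simpa using hg x hx

/-- A subgroup of `T` with squares in `W` covers at most four cosets of `W`. -/
theorem relIndex_le_four {E : Subgroup G} (hE : E ≤ T) (hsq : ∀ e ∈ E, e * e ∈ W) :
    W.relIndex E ≤ 4 := by
  haveI : (W.subgroupOf T).Normal := ⟨fun w hw t => by
    simpa [Subgroup.mem_subgroupOf] using h.conjW t t.2 w hw⟩
  let f : E →* T ⧸ W.subgroupOf T := (QuotientGroup.mk' _).comp (Subgroup.inclusion hE)
  have hker : f.ker = W.subgroupOf E := by
    ext x
    simp [f, MonoidHom.mem_ker, QuotientGroup.eq_one_iff, Subgroup.mem_subgroupOf]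
  have hcard : W.relIndex E = Nat.card f.range := by
    rw [← Subgroup.index_ker, hker]; rfl
  have h8 : Nat.card (T ⧸ W.subgroupOf T) = 8 := h.index
  have hdvd : Nat.card f.range ∣ 8 := h8 ▸ Subgroup.card_subgroup_dvd_card _
  by_contra hlt
  have h88 : Nat.card f.range = 8 := by
    have hle := Nat.le_of_dvd (by norm_num) hdvd
    rw [hcard] at hlt
    generalize Nat.card f.range = n at hdvd hle hlt ⊢
    interval_cases n <;> first | rfl | omega
  have hsurj : f.range = ⊤ := Subgroup.eq_top_of_card_eq _ (by rw [h88, h8])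
  have hexp : ∀ x : T ⧸ W.subgroupOf T, x * x = 1 := fun x => by
    obtain ⟨e, rfl⟩ := (hsurj ▸ Subgroup.mem_top x : x ∈ f.range)
    rw [← map_mul, ← MonoidHom.mem_ker, hker, Subgroup.mem_subgroupOf]
    exact hsq _ e.2
  obtain ⟨t₁, h1, t₂, h2, hn⟩ := h.nonab
  refine hn ?_
  have hc : ∀ x y : T ⧸ W.subgroupOf T, x * y * x⁻¹ * y⁻¹ = 1 := fun x y => by
    rw [← mul_eq_one_iff_eq_inv.1 (hexp x), ← mul_eq_one_iff_eq_inv.1 (hexp y), mul_assoc (x * y), hexp]
  have := hc (QuotientGroup.mk ⟨t₁, h1⟩) (QuotientGroup.mk ⟨t₂, h2⟩)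
  rw [← QuotientGroup.mk_inv, ← QuotientGroup.mk_inv, ← QuotientGroup.mk_mul, ← QuotientGroup.mk_mul,
    ← QuotientGroup.mk_mul, QuotientGroup.eq_one_iff] at this
  simpa [Subgroup.mem_subgroupOf] using this

/-- A conjugate in `T` of a subgroup of index at most two of `W` lies in `W`. -/
theorem half {B : Subgroup G} (hB : B ≤ W) (hi : B.relIndex W ≤ 2) {g : G}
    (hg : ∀ b ∈ B, g * b * g⁻¹ ∈ T) : ∀ b ∈ B, g * b * g⁻¹ ∈ W := by
  set A := W.comap (MulAut.conj g).toMonoidHom
  have hAB : A.relIndex B = W.relIndex (B.map (MulAut.conj g).toMonoidHom) :=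
    Subgroup.relIndex_comap _ _ _
  have hmap : B.map (MulAut.conj g).toMonoidHom ≤ T := by
    rintro _ ⟨x, hx, rfl⟩; simpa using hg x hx
  have hmul : ∀ n, A.relIndex B ≤ n → (A ⊓ B).relIndex W ≤ n * 2 := fun n hn => by
    rw [← Subgroup.relIndex_mul_relIndex (A ⊓ B) B W inf_le_right hB, Subgroup.inf_relIndex_right]
    exact Nat.mul_le_mul hn hi
  have h1 : A.relIndex B ≤ 8 := by
    rw [hAB, ← h.index]
    exact Subgroup.relIndex_le_of_le_right hmap (by rw [h.index]; norm_num)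
  have hD : ∀ d ∈ D, g * d * g⁻¹ ∈ W := fun d hd =>
    mem_comap_conj.1 ((h.small (A ⊓ B) (inf_le_right.trans hB) (hmul 8 h1) hd).1)
  have h2 : A.relIndex B ≤ 4 := by
    rw [hAB]
    refine h.relIndex_le_four hmap ?_
    rintro _ ⟨x, hx, rfl⟩
    simpa [mul_assoc] using hD _ (h.sq x (hB hx))
  have hstab : ∀ d ∈ D, g * d * g⁻¹ ∈ D := fun d hd => h.conj_mem_D (by
    refine le_trans ?_ (hmul 4 h2)
    exact Subgroup.relIndex_le_of_le_left inf_le_left
      Subgroup.index_ne_zero_of_finite) hd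
  exact fun b hb => h.mem_W_of_stab hstab (hB hb) (hg b hb)

end Setting

end CfsgLib.RudW34
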