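import Mathlib

/-!
Transfer into an abelian group written through a cocycle on cosets, and its behaviour on the orbit
of a subgroup split into two orbits of a subgroup of index two.
-/

set_option autoImplicit false

namespace CfsgLib.RudW34

open Classical in
/-- The orbit of `q` under `Y`, as a finite set. -/
noncomputable def orb {G Ω : Type*} [Group G] [MulAction G Ω] [Fintype Ω] (Y : Subgroup G) (q : Ω) :
    Finset Ω :=
  Finset.univ.filter fun x => ∃ y ∈ Y, y • q = x

theorem mem_orb {G Ω : Type*} [Group G] [MulAction G Ω] [Fintype Ω] {Y : Subgroup G} {q x : Ω} :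
    x ∈ orb Y q ↔ ∃ y ∈ Y, y • q = x := by simp [orb]

theorem orb_smul_mem {G Ω : Type*} [Group G] [MulAction G Ω] [Fintype Ω] {Y : Subgroup G} {q x : Ω}
    {y : G} (hy : y ∈ Y) (hx : x ∈ orb Y q) : y • x ∈ orb Y q := by
  obtain ⟨z, hz, rfl⟩ := mem_orb.1 hx
  exact mem_orb.2 ⟨y * z, mul_mem hy hz, mul_smul _ _ _⟩

theorem orb_eq_singleton {G Ω : Type*} [Group G] [MulAction G Ω] [Fintype Ω] {Y : Subgroup G} {q : Ω}
    (h : ∀ y ∈ Y, y • q = q) : orb Y q = {q} := by
  ext x
  rw [mem_orb, Finset.mem_singleton]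
  exact ⟨fun ⟨y, hy, e⟩ => by rw [← e, h y hy], fun e => ⟨1, one_mem _, by rw [one_smul, e]⟩⟩

variable {G : Type*} [Group G] {T : Subgroup G} {A : Type*} [CommGroup A]

theorem sec_mem (g : G) (q : G ⧸ T) : (g • q).out⁻¹ * (g * q.out) ∈ T := by
  rw [← QuotientGroup.eq, QuotientGroup.out_eq']
  conv_lhs => rw [← QuotientGroup.out_eq' q]
  rfl

/-- The cocycle whose product over all cosets is the transfer. -/
noncomputable def coc (χ : T →* A) (g : G) (q : G ⧸ T) : A :=
  χ ⟨(g • q).out⁻¹ * (g * q.out), sec_mem g q⟩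

theorem coc_mul (χ : T →* A) (g h : G) (q : G ⧸ T) :
    coc χ (g * h) q = coc χ g (h • q) * coc χ h q := by
  rw [coc, coc, coc, ← map_mul]
  refine congrArg χ (Subtype.ext ?_)
  simp [mul_smul, mul_assoc]

theorem coc_one (χ : T →* A) (q : G ⧸ T) : coc χ 1 q = 1 := by
  have h := coc_mul χ 1 1 q
  rwa [one_mul, one_smul, left_eq_mul] at h

theorem coc_fix (χ : T →* A) {g : G} {q : G ⧸ T} (h : g • q = q) (hm : q.out⁻¹ * g * q.out ∈ T) :
    coc χ g q = χ ⟨q.out⁻¹ * g * q.out, hm⟩ := by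
  refine congrArg χ (Subtype.ext ?_)
  simp [h, mul_assoc]

theorem conj_mem_of_fix {g : G} {q : G ⧸ T} (h : g • q = q) : q.out⁻¹ * g * q.out ∈ T := by
  have := sec_mem g q
  rwa [h, ← mul_assoc] at this

theorem fix_of_conj_mem {g : G} {q : G ⧸ T} (h : q.out⁻¹ * g * q.out ∈ T) : g • q = q := by
  conv_rhs => rw [← QuotientGroup.out_eq' q]
  conv_lhs => rw [← QuotientGroup.out_eq' q]
  change ((g * q.out : G) : G ⧸ T) = _
  refine (QuotientGroup.eq.2 ?_).symm
  rwa [← mul_assoc]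

/-- The product of the cocycle over a finite set of cosets. -/
noncomputable def tau (χ : T →* A) (S : Finset (G ⧸ T)) (g : G) : A := ∏ q ∈ S, coc χ g q

theorem tau_one (χ : T →* A) (S : Finset (G ⧸ T)) : tau χ S 1 = 1 :=
  Finset.prod_eq_one fun q _ => coc_one χ q

theorem image_smul_eq [DecidableEq (G ⧸ T)] {S : Finset (G ⧸ T)} {h : G}
    (hh : ∀ q ∈ S, h • q ∈ S) : S.image (fun q => h • q) = S := by
  refine Finset.eq_of_subset_of_card_le (Finset.image_subset_iff.2 hh) ?_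
  rw [Finset.card_image_of_injective _ (MulAction.injective h)]

theorem tau_mul (χ : T →* A) {S : Finset (G ⧸ T)} (g : G) {h : G} (hh : ∀ q ∈ S, h • q ∈ S) :
    tau χ S (g * h) = tau χ S g * tau χ S h := by
  classical
  simp only [tau, coc_mul, Finset.prod_mul_distrib]
  congr 1
  conv_rhs => rw [← image_smul_eq hh]
  rw [Finset.prod_image fun a _ b _ e => MulAction.injective h e]

theorem tau_image [DecidableEq (G ⧸ T)] (χ : T →* A) {S : Finset (G ⧸ T)} (u y : G)
    (hy : ∀ q ∈ S, (u⁻¹ * y * u) • q ∈ S) :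
    tau χ (S.image fun q => u • q) y = tau χ S (u⁻¹ * y * u) := by
  simp only [tau]
  rw [Finset.prod_image fun a _ b _ e => MulAction.injective u e]
  have h1 : ∀ q, coc χ y (u • q) * coc χ u q =
      coc χ u ((u⁻¹ * y * u) • q) * coc χ (u⁻¹ * y * u) q := fun q => by
    rw [← coc_mul, ← coc_mul]
    congr 1
    group
  have h2 : ∏ q ∈ S, coc χ u ((u⁻¹ * y * u) • q) = ∏ q ∈ S, coc χ u q := by
    conv_rhs => rw [← image_smul_eq hy]
    rw [Finset.prod_image fun a _ b _ e => MulAction.injective _ e]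
  have h3 := Finset.prod_congr (s₁ := S) rfl fun q _ => h1 q
  rw [Finset.prod_mul_distrib, Finset.prod_mul_distrib, h2, mul_comm] at h3
  exact mul_left_cancel h3

variable [Fintype (G ⧸ T)]

/-- The transfer homomorphism. -/
noncomputable def tauHom (χ : T →* A) : G →* A where
  toFun := tau χ Finset.univ
  map_one' := tau_one χ _
  map_mul' g h := tau_mul χ g fun _ _ => Finset.mem_univ _

section Split

variable {Y R : Subgroup G} (hRY : R ≤ Y) (hR : R.relIndex Y = 2)
include hR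

theorem relTwo_mem_or {u y : G} (hu : u ∈ Y) (huR : u ∉ R) (hy : y ∈ Y) : y ∈ R ∨ u⁻¹ * y ∈ R := by
  by_cases h : y ∈ R
  · exact Or.inl h
  refine Or.inr ?_
  have := (Subgroup.mul_mem_iff_of_index_two (H := R.subgroupOf Y) hR
    (a := ⟨u⁻¹, inv_mem hu⟩) (b := ⟨y, hy⟩))
  simp only [Subgroup.mem_subgroupOf, Subgroup.coe_mul, inv_mem_iff] at this
  exact this.2 (iff_of_false huR h)

theorem relTwo_sq {u : G} (hu : u ∈ Y) : u * u ∈ R := by
  have := Subgroup.mul_self_mem_of_index_two (H := R.subgroupOf Y) hR ⟨u, hu⟩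
  simpa [Subgroup.mem_subgroupOf] using this

theorem relTwo_conj {u y : G} (hu : u ∈ Y) (hy : y ∈ R) (hyY : y ∈ Y) : u⁻¹ * y * u ∈ R := by
  haveI := Subgroup.normal_of_index_eq_two (H := R.subgroupOf Y) hR
  have := Subgroup.Normal.conj_mem this ⟨y, hyY⟩ (by simpa [Subgroup.mem_subgroupOf] using hy)
    (⟨u⁻¹, inv_mem hu⟩)
  simpa [Subgroup.mem_subgroupOf] using this

include hRY

theorem orb_split [DecidableEq (G ⧸ T)] {u : G} (hu : u ∈ Y) (huR : u ∉ R) {q : G ⧸ T}
    (hst : ∀ y ∈ Y, y • q = q → y ∈ R) :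
    orb Y q = orb R q ∪ (orb R q).image (fun x => u • x) ∧
      Disjoint (orb R q) ((orb R q).image fun x => u • x) := by
  refine ⟨?_, ?_⟩
  · ext x
    simp only [Finset.mem_union, Finset.mem_image, mem_orb]
    constructor
    · rintro ⟨y, hy, rfl⟩
      rcases relTwo_mem_or hR hu huR hy with h | h
      · exact Or.inl ⟨y, h, rfl⟩
      · exact Or.inr ⟨_, ⟨_, h, rfl⟩, by rw [← mul_smul, mul_inv_cancel_left]⟩
    · rintro (⟨y, hy, rfl⟩ | ⟨_, ⟨y, hy, rfl⟩, rfl⟩)
      · exact ⟨y, hRY hy, rfl⟩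
      · exact ⟨u * y, mul_mem hu (hRY hy), mul_smul _ _ _⟩
  · rw [Finset.disjoint_left]
    simp only [Finset.mem_image, mem_orb]
    rintro x ⟨r, hr, rfl⟩ ⟨_, ⟨r', hr', rfl⟩, e⟩
    have h : (r⁻¹ * (u * r')) • q = q := by rw [mul_smul, mul_smul, e, inv_smul_smul]
    have hm := hst _ (mul_mem (inv_mem (hRY hr)) (mul_mem hu (hRY hr'))) h
    exact huR ((Subgroup.mul_mem_cancel_right R hr').1 ((Subgroup.mul_mem_cancel_left R (inv_mem hr)).1 hm))

/-- If the transfer from the index two subgroup kills the square of `u` and its commutators with `R`,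
the transfer from `Y` is trivial. -/
theorem tau_orb_eq_one (χ : T →* A) (hA : ∀ a : A, a * a = 1) {u : G} (hu : u ∈ Y) (huR : u ∉ R)
    {q : G ⧸ T} (hst : ∀ y ∈ Y, y • q = q → y ∈ R) (h1 : tau χ (orb R q) (u * u) = 1)
    (h2 : ∀ y ∈ R, tau χ (orb R q) (y⁻¹ * (u⁻¹ * y * u)) = 1) :
    ∀ y ∈ Y, tau χ (orb Y q) y = 1 := by
  classical
  obtain ⟨he, hd⟩ := orb_split hRY hR hu huR hst
  have hst' : ∀ {y : G}, y ∈ R → ∀ x ∈ orb R q, y • x ∈ orb R q := fun hy x hx => orb_smul_mem hy hx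
  have hR1 : ∀ y ∈ R, tau χ (orb Y q) y = 1 := fun y hy => by
    have hy' := relTwo_conj hR hu hy (hRY hy)
    rw [tau, he, Finset.prod_union hd]
    change tau χ _ y * tau χ _ y = 1
    rw [tau_image χ u y (hst' hy'), show u⁻¹ * y * u = y * (y⁻¹ * (u⁻¹ * y * u)) by group,
      tau_mul χ y (hst' (mul_mem (inv_mem hy) hy')), h2 y hy, mul_one, hA]
  have hu1 : tau χ (orb Y q) u = 1 := by
    rw [tau, he, Finset.prod_union hd, Finset.prod_image fun a _ b _ e => MulAction.injective u e,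
      ← Finset.prod_mul_distrib, ← h1]
    exact Finset.prod_congr rfl fun x _ => by rw [coc_mul, mul_comm]
  intro y hy
  rcases relTwo_mem_or hR hu huR hy with h | h
  · exact hR1 y h
  · rw [show y = u * (u⁻¹ * y) by group,
      tau_mul χ u (fun x hx => orb_smul_mem (hRY h) hx), hu1, hR1 _ h, mul_one]

end Split

end CfsgLib.RudW34
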