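import Mathlib

/-!
The action of a normalizer of an elementary abelian group of order eight, in coordinates.
-/

set_option autoImplicit false

namespace CfsgLib.RudW34

variable {G : Type*} [Group G]

theorem pow_val_add {x : G} (hx : x * x = 1) : ∀ u v : ZMod 2, x ^ (u + v).val = x ^ u.val * x ^ v.val := by
  intro u v
  have h : (u + v).val = (u.val + v.val) % 2 := ZMod.val_add u v
  rw [h, ← pow_add]
  conv_rhs => rw [← Nat.mod_add_div (u.val + v.val) 2, pow_add, pow_mul, pow_two, hx, one_pow, mul_one]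

variable {D : Subgroup G} {c a b : G}

/-- A basis of an elementary abelian group of order eight. -/
structure Basis8 (D : Subgroup G) (c a b : G) : Prop where
  cardD : Nat.card D = 8
  expD : ∀ d ∈ D, d * d = 1
  comm : ∀ x ∈ D, ∀ y ∈ D, x * y = y * x
  mem : c ∈ D ∧ a ∈ D ∧ b ∈ D
  c_ne : c ≠ 1
  a_ne : a ≠ 1 ∧ a ≠ c
  b_ne : b ≠ 1 ∧ b ≠ c ∧ b ≠ a ∧ b ≠ a * c

namespace Basis8

variable (h : Basis8 D c a b)

/-- The element with given coordinates. -/
def vec (c a b : G) (v : Fin 3 → ZMod 2) : G := c ^ (v 0).val * a ^ (v 1).val * b ^ (v 2).val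

include h

theorem vec_mem (v : Fin 3 → ZMod 2) : vec c a b v ∈ D :=
  mul_mem (mul_mem (pow_mem h.mem.1 _) (pow_mem h.mem.2.1 _)) (pow_mem h.mem.2.2 _)

theorem vec_add (u v : Fin 3 → ZMod 2) : vec c a b (u + v) = vec c a b u * vec c a b v := by
  have key : ∀ A B C' A' B' C'' : D, ((A * A') * (B * B') * (C' * C'') : G) = A * B * C' * (A' * B' * C'') := by
    intro A B C' A' B' C''
    have e : (A' : G) * B = B * A' := h.comm _ A'.2 _ B.2
    have e2 : (A' : G) * B' * C' = C' * (A' * B') := h.comm _ (mul_mem A'.2 B'.2) _ C'.2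
    calc (A : G) * A' * (B * B') * (C' * C'') = A * (A' * B) * B' * C' * C'' := by group
      _ = A * B * (A' * B' * C') * C'' := by rw [e]; group
      _ = A * B * C' * (A' * B' * C'') := by rw [e2]; group
  simp only [vec, Pi.add_apply, pow_val_add (h.expD _ h.mem.1), pow_val_add (h.expD _ h.mem.2.1),
    pow_val_add (h.expD _ h.mem.2.2)]
  exact key ⟨_, pow_mem h.mem.1 (u 0).val⟩ ⟨_, pow_mem h.mem.2.1 (u 1).val⟩ ⟨_, pow_mem h.mem.2.2 (u 2).val⟩
    ⟨_, pow_mem h.mem.1 (v 0).val⟩ ⟨_, pow_mem h.mem.2.1 (v 1).val⟩ ⟨_, pow_mem h.mem.2.2 (v 2).val⟩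

theorem vec_eq_one : ∀ v : Fin 3 → ZMod 2, vec c a b v = 1 → v = 0 := by
  intro v hv
  have hb2 := h.expD _ h.mem.2.2
  have ha2 := h.expD _ h.mem.2.1
  have hc2 := h.expD _ h.mem.1
  have hac := h.comm _ h.mem.1 _ h.mem.2.1
  obtain ⟨i, j, k, rfl⟩ : ∃ i j k, v = ![i, j, k] :=
    ⟨v 0, v 1, v 2, by funext m; fin_cases m <;> rfl⟩
  simp only [vec, Matrix.cons_val_zero, Matrix.cons_val_one, Matrix.cons_val] at hv
  have two : ∀ i : ZMod 2, i = 0 ∨ i = 1 := by decide
  revert hv
  rcases two i with rfl | rfl <;> rcases two j with rfl | rfl <;> rcases two k with rfl | rfl <;>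
    simp [ZMod.val_one, ZMod.val_zero] <;> intro hv
  · exact h.b_ne.1 hv
  · exact h.a_ne.1 hv
  · exact h.b_ne.2.2.1 (by rw [← mul_one a, ← hv, ← mul_assoc, ha2, one_mul])
  · exact h.c_ne hv
  · exact h.b_ne.2.1 (by rw [← mul_one c, ← hv, ← mul_assoc, hc2, one_mul])
  · exact h.a_ne.2 (by rw [← mul_one c, ← hv, ← mul_assoc, hc2, one_mul])
  · refine h.b_ne.2.2.2 ?_
    calc b = (c * a) * (c * a) * b := by rw [h.expD _ (mul_mem h.mem.1 h.mem.2.1), one_mul]
      _ = (c * a) * (c * a * b) := by group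
      _ = a * c := by rw [hv, mul_one, hac]

theorem vec_injective : Function.Injective (vec c a b) := by
  intro u v e
  have h1 : vec c a b (u + v) = 1 := by rw [h.vec_add, e, h.expD _ (h.vec_mem v)]
  have h2 := h.vec_eq_one _ h1
  calc u = (u + v) + v := by rw [add_assoc, ← two_nsmul, ZModModule.char_nsmul_eq_zero 2, add_zero]
    _ = v := by rw [h2, zero_add]

theorem vec_zero : vec c a b 0 = 1 := by simp [vec]

/-- The coordinates of an element. -/
noncomputable def equiv : (Fin 3 → ZMod 2) ≃ D :=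
  Equiv.ofBijective (fun v => ⟨vec c a b v, h.vec_mem v⟩) <| by
    haveI : Finite D := Nat.finite_of_card_ne_zero (by rw [h.cardD]; norm_num)
    rw [Nat.bijective_iff_injective_and_card]
    refine ⟨fun u v e => h.vec_injective (congrArg Subtype.val e), ?_⟩
    rw [h.cardD, Nat.card_fun]
    simp

theorem equiv_apply (v : Fin 3 → ZMod 2) : (h.equiv v : G) = vec c a b v := rfl

theorem equiv_symm_apply {d : G} (hd : d ∈ D) {v : Fin 3 → ZMod 2} (e : vec c a b v = d) :
    h.equiv.symm ⟨d, hd⟩ = v := by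
  rw [Equiv.symm_apply_eq]; exact Subtype.ext e.symm

/-- The linear map of an element normalizing `D`. -/
noncomputable def lin (x : Subgroup.normalizer (D : Set G)) : (Fin 3 → ZMod 2) →ₗ[ZMod 2] (Fin 3 → ZMod 2) :=
  AddMonoidHom.toZModLinearMap 2
    { toFun := fun v => h.equiv.symm ⟨x * vec c a b v * (x : G)⁻¹,
        (Subgroup.mem_normalizer_iff.1 x.2 _).1 (h.vec_mem v)⟩
      map_zero' := h.equiv_symm_apply _ (by simp [h.vec_zero])
      map_add' := fun u v => h.equiv_symm_apply _ (by
        have hk : ∀ (d : D), vec c a b (h.equiv.symm d) = d := fun d =>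
          congrArg Subtype.val (h.equiv.apply_symm_apply d)
        rw [h.vec_add, hk, hk]
        simp only [h.vec_add]
        group) }

theorem vec_lin (x : Subgroup.normalizer (D : Set G)) (v : Fin 3 → ZMod 2) :
    vec c a b (h.lin x v) = x * vec c a b v * (x : G)⁻¹ := by
  rw [← h.equiv_apply]
  exact congrArg Subtype.val (h.equiv.apply_symm_apply _)

theorem lin_mul (x y : Subgroup.normalizer (D : Set G)) : h.lin (x * y) = h.lin x ∘ₗ h.lin y := by
  refine LinearMap.ext fun v => h.vec_injective ?_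
  rw [LinearMap.comp_apply, h.vec_lin, h.vec_lin, h.vec_lin]
  simp [mul_assoc]

theorem lin_one : h.lin 1 = LinearMap.id :=
  LinearMap.ext fun v => h.vec_injective (by rw [h.vec_lin]; simp)

/-- The action on `D` as matrices. -/
noncomputable def rho : Subgroup.normalizer (D : Set G) →* GL (Fin 3) (ZMod 2) :=
  MonoidHom.toHomUnits
    { toFun := fun x => LinearMap.toMatrix' (h.lin x)
      map_one' := by rw [h.lin_one, LinearMap.toMatrix'_id]
      map_mul' := fun x y => by rw [h.lin_mul, LinearMap.toMatrix'_comp] }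

theorem rho_val (x : Subgroup.normalizer (D : Set G)) : (h.rho x).1 = LinearMap.toMatrix' (h.lin x) := rfl

theorem rho_apply (x : Subgroup.normalizer (D : Set G)) (i j : Fin 3) :
    (h.rho x).1 i j = h.lin x (Pi.single j 1) i := by
  rw [rho_val, LinearMap.toMatrix'_apply]

theorem vec_single : vec c a b (Pi.single 0 1) = c ∧ vec c a b (Pi.single 1 1) = a ∧
    vec c a b (Pi.single 2 1) = b := by
  refine ⟨?_, ?_, ?_⟩ <;> simp [vec, Pi.single_apply, ZMod.val_one]

theorem rho_eq_one_iff (x : Subgroup.normalizer (D : Set G)) :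
    h.rho x = 1 ↔ ∀ d ∈ D, (x : G) * d = d * x := by
  constructor
  · intro hx d hd
    have hl : h.lin x = LinearMap.id := by
      apply LinearMap.toMatrix'.injective
      rw [← h.rho_val, hx, Units.val_one, LinearMap.toMatrix'_id]
    have := h.vec_lin x (h.equiv.symm ⟨d, hd⟩)
    rw [hl, LinearMap.id_apply, ← h.equiv_apply, Equiv.apply_symm_apply] at this
    exact (mul_inv_eq_iff_eq_mul.1 this.symm)
  · intro hx
    refine Units.ext ?_
    rw [rho_val, Units.val_one, ← LinearMap.toMatrix'_id]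
    refine congrArg _ (LinearMap.ext fun v => h.vec_injective ?_)
    rw [h.vec_lin, hx _ (h.vec_mem v), mul_inv_cancel_right, LinearMap.id_apply]

/-- The matrix from the images of the basis. -/
theorem rho_eq (x : Subgroup.normalizer (D : Set G)) {u v w : Fin 3 → ZMod 2}
    (hu : (x : G) * c * (x : G)⁻¹ = vec c a b u) (hv : (x : G) * a * (x : G)⁻¹ = vec c a b v)
    (hw : (x : G) * b * (x : G)⁻¹ = vec c a b w) :
    (h.rho x).1 = Matrix.of fun i j => ![u, v, w] j i := by
  obtain ⟨e0, e1, e2⟩ := h.vec_single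
  ext i j
  rw [rho_apply, Matrix.of_apply]
  fin_cases j
  · exact congrFun (h.vec_injective (by rw [h.vec_lin]; simp only [Fin.mk_zero, Fin.zero_eta]; rw [e0]; exact hu)) i
  · exact congrFun (h.vec_injective (by rw [h.vec_lin]; simp only [Fin.mk_one]; rw [e1]; exact hv)) i
  · exact congrFun (h.vec_injective (by rw [h.vec_lin]; exact (congrArg (fun y => (x : G) * y * (x : G)⁻¹) e2).trans hw)) i

end Basis8

end CfsgLib.RudW34
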