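import Mathlib
import Cfsg.Agent.Classical.Linear.Generation

/-!
The group `GL(3, 2)`: perfection, sign characters of the stabilizers of the point and the line of the
standard flag, and generation by the upper triangular group and two elements moving that flag.
-/

set_option autoImplicit false

namespace CfsgLib.RudW34

/-- `GL(3, 2)`. -/
abbrev GLT := GL (Fin 3) (ZMod 2)

/-- The matrices of the upper triangular group. -/
def um (a b c : ZMod 2) : Matrix (Fin 3) (Fin 3) (ZMod 2) := !![1, a, c; 0, 1, b; 0, 0, 1]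

/-- A root element. -/
noncomputable def tv (i j : Fin 3) (h : i ≠ j) : GLT :=
  Matrix.SpecialLinearGroup.toGL (Matrix.SpecialLinearGroup.transvection h 1)

theorem toGL_surjective : Function.Surjective
    (Matrix.SpecialLinearGroup.toGL : Matrix.SpecialLinearGroup (Fin 3) (ZMod 2) →* GLT) := by
  intro A
  have h : A.1.det = 1 := by
    have : A.1.det ≠ 0 := (Matrix.isUnit_iff_isUnit_det _).1 A.isUnit |>.ne_zero
    revert this
    generalize A.1.det = x
    decide +revert
  exact ⟨⟨A.1, h⟩, Units.ext rfl⟩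

theorem commutator_eq_top : commutator GLT = ⊤ := by
  rw [eq_top_iff]
  intro A _
  obtain ⟨B, rfl⟩ := toGL_surjective A
  have hB : B ∈ commutator (Matrix.SpecialLinearGroup (Fin 3) (ZMod 2)) := by
    rw [CfsgLib.Classical.Linear.commutator_sl_fin_eq_top 3 (by omega)]; trivial
  have hle : (commutator (Matrix.SpecialLinearGroup (Fin 3) (ZMod 2))).map
      (Matrix.SpecialLinearGroup.toGL : _ →* GLT) ≤ commutator GLT := by
    rw [commutator_def, Subgroup.map_commutator]
    exact Subgroup.commutator_mono le_top le_top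
  exact hle ⟨B, hB, rfl⟩

theorem derivedSeries_eq_top (n : ℕ) : derivedSeries GLT n = ⊤ := by
  induction n with
  | zero => rfl
  | succ n ih => rw [derivedSeries_succ, ih, ← commutator_def, commutator_eq_top]

/-- A homomorphism into a solvable group of a group lying over `GL(3, 2)` with odd kernel kills
2-elements. -/
theorem kill_two {H K : Type*} [Group H] [Finite H] [Group K] [Group.IsSolvable K] (π : H →* GLT)
    (hπ : Function.Surjective π) (hodd : Odd (Nat.card π.ker)) (f : H →* K) {t : H}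
    (ht : ∃ e : ℕ, t ^ 2 ^ e = 1) : f t = 1 := by
  obtain ⟨n, hn⟩ := (Group.isSolvable_def (G := K)).1 inferInstance
  obtain ⟨h, hh, he⟩ : ∃ h ∈ derivedSeries H n, π h = π t := by
    have := map_derivedSeries_eq hπ n
    rw [derivedSeries_eq_top] at this
    exact (Subgroup.mem_map (f := π)).1 (this ▸ Subgroup.mem_top (π t))
  have hfh : f h = 1 := by
    have := map_derivedSeries_le_derivedSeries f n ⟨h, hh, rfl⟩
    rwa [hn, Subgroup.mem_bot] at this
  have hk : t * h⁻¹ ∈ π.ker := by rw [MonoidHom.mem_ker, map_mul, map_inv, he, mul_inv_cancel]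
  have hft : f t = f (t * h⁻¹) := by rw [map_mul, map_inv, hfh, inv_one, mul_one]
  have h1 : orderOf (f t) ∣ Nat.card π.ker := by
    rw [hft]
    refine (orderOf_map_dvd f _).trans ?_
    rw [← Subgroup.orderOf_mk _ hk]
    exact orderOf_dvd_natCard _
  obtain ⟨e, he2⟩ := ht
  have h2 : orderOf (f t) ∣ 2 ^ e := orderOf_dvd_of_pow_eq_one (by rw [← map_pow, he2, map_one])
  rw [← orderOf_eq_one_iff]
  exact Nat.dvd_one.1 ((Nat.Coprime.pow_right e (Nat.coprime_two_right.2 hodd)) ▸ Nat.dvd_gcd h1 h2)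

theorem decomp : ∀ M : Matrix (Fin 3) (Fin 3) (ZMod 2), M.det = 1 → (M 1 0 ≠ 0 ∨ M 2 0 ≠ 0) →
    ∃ a b c a' b' c', um a b c * M * um a' b' c' ∈
      ([!![0, 1, 0; 1, 0, 0; 0, 0, 1], !![0, 0, 1; 1, 0, 0; 0, 1, 0],
        !![0, 1, 0; 0, 0, 1; 1, 0, 0], !![0, 0, 1; 0, 1, 0; 1, 0, 0]] :
        List (Matrix (Fin 3) (Fin 3) (ZMod 2))) := by
  intro M
  rw [Matrix.eta_fin_three M]
  generalize M 0 0 = a, M 0 1 = b, M 0 2 = c, M 1 0 = d, M 1 1 = e, M 1 2 = f, M 2 0 = g, M 2 1 = h,
    M 2 2 = i
  fin_cases a <;> fin_cases b <;> fin_cases c <;> (revert d e f g h i; decide +kernel)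

theorem decomp' : ∀ M : Matrix (Fin 3) (Fin 3) (ZMod 2), M.det = 1 → (M 2 0 ≠ 0 ∨ M 2 1 ≠ 0) →
    ∃ a b c a' b' c', um a b c * M * um a' b' c' ∈
      ([!![1, 0, 0; 0, 0, 1; 0, 1, 0], !![0, 0, 1; 1, 0, 0; 0, 1, 0],
        !![0, 1, 0; 0, 0, 1; 1, 0, 0], !![0, 0, 1; 0, 1, 0; 1, 0, 0]] :
        List (Matrix (Fin 3) (Fin 3) (ZMod 2))) := by
  intro M
  rw [Matrix.eta_fin_three M]
  generalize M 0 0 = a, M 0 1 = b, M 0 2 = c, M 1 0 = d, M 1 1 = e, M 1 2 = f, M 2 0 = g, M 2 1 = h,
    M 2 2 = i
  fin_cases a <;> fin_cases b <;> fin_cases c <;> (revert d e f g h i; decide +kernel)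

theorem tv_val (i j : Fin 3) (h : i ≠ j) :
    (tv i j h).1 = 1 + Matrix.single i j (1 : ZMod 2) := rfl

theorem det_eq_one (A : GLT) : A.1.det = 1 := by
  obtain ⟨B, rfl⟩ := toGL_surjective A
  exact B.2

theorem tv_comm {i j k : Fin 3} (hij : i ≠ j) (hjk : j ≠ k) (hik : i ≠ k) :
    tv i j hij * tv j k hjk * (tv i j hij)⁻¹ * (tv j k hjk)⁻¹ = tv i k hik := by
  simp only [tv]
  rw [← map_inv, ← map_inv, ← map_mul, ← map_mul, ← map_mul,
    CfsgLib.Classical.Linear.transvection_commutator hij hjk hik, one_mul]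

/-- A subgroup containing the upper triangular group and moving the point and the line of the flag. -/
theorem eq_top_of_moves (R : Subgroup GLT) (h01 : tv 0 1 (by decide) ∈ R) (h12 : tv 1 2 (by decide) ∈ R)
    (hg : ∃ g ∈ R, g.1 1 0 ≠ 0 ∨ g.1 2 0 ≠ 0) (hh : ∃ g ∈ R, g.1 2 0 ≠ 0 ∨ g.1 2 1 ≠ 0) : R = ⊤ := by
  have hcomm : ∀ {i j k : Fin 3} (hij : i ≠ j) (hjk : j ≠ k) (hik : i ≠ k),
      tv i j hij ∈ R → tv j k hjk ∈ R → tv i k hik ∈ R := fun hij hjk hik h1 h2 => by
    rw [← tv_comm hij hjk hik]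
    exact mul_mem (mul_mem (mul_mem h1 h2) (inv_mem h1)) (inv_mem h2)
  have h02 := hcomm (i := 0) (j := 1) (k := 2) (by decide) (by decide) (by decide) h01 h12
  have hu : ∀ a b c, ∃ U ∈ R, U.1 = um a b c := by
    intro a b c
    refine ⟨tv 1 2 (by decide) ^ b.val * tv 0 1 (by decide) ^ a.val * tv 0 2 (by decide) ^ c.val,
      mul_mem (mul_mem (pow_mem h12 _) (pow_mem h01 _)) (pow_mem h02 _), ?_⟩
    rw [Units.val_mul, Units.val_mul, Units.val_pow_eq_pow_val, Units.val_pow_eq_pow_val,
      Units.val_pow_eq_pow_val, tv_val, tv_val, tv_val]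
    revert a b c
    decide +kernel
  -- conjugates of root elements
  have hconj : ∀ (w : Matrix (Fin 3) (Fin 3) (ZMod 2)), (∃ g ∈ R, g.1 = w) →
      ∀ (i j k l : Fin 3) (hij : i ≠ j) (hkl : k ≠ l), tv i j hij ∈ R →
      w * (1 + Matrix.single i j 1) = (1 + Matrix.single k l 1) * w → tv k l hkl ∈ R := by
    rintro _ ⟨g, hg, rfl⟩ i j k l hij hkl ht he
    have : g * tv i j hij = tv k l hkl * g := Units.ext (by
      rw [Units.val_mul, Units.val_mul, tv_val, tv_val]; exact he)
    rw [← mul_inv_eq_iff_eq_mul.2 this]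
    exact mul_mem (mul_mem hg ht) (inv_mem hg)
  have hsand : ∀ {g : GLT}, g ∈ R → ∀ {a b c a' b' c' : ZMod 2} {w},
      um a b c * g.1 * um a' b' c' = w → ∃ x ∈ R, x.1 = w := by
    intro g hg a b c a' b' c' w e
    obtain ⟨U, hU, eU⟩ := hu a b c
    obtain ⟨V, hV, eV⟩ := hu a' b' c'
    exact ⟨U * g * V, mul_mem (mul_mem hU hg) hV, by rw [Units.val_mul, Units.val_mul, eU, eV, e]⟩
  have key : (tv 1 0 (by decide) ∈ R ∧ tv 2 1 (by decide) ∈ R) ∨ tv 2 0 (by decide) ∈ R := by
    obtain ⟨g, hg, hg'⟩ := hg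
    obtain ⟨a, b, c, a', b', c', hw⟩ := decomp g.1 (det_eq_one g) hg'
    simp only [List.mem_cons, List.not_mem_nil, or_false] at hw
    rcases hw with e | e | e | e
    · obtain ⟨g, hg', hh'⟩ := hh
      have h10 : tv 1 0 (by decide) ∈ R :=
        hconj _ (hsand hg e) 0 1 1 0 (by decide) (by decide) h01 (by decide +kernel)
      obtain ⟨a, b, c, a', b', c', hw⟩ := decomp' g.1 (det_eq_one g) hh'
      simp only [List.mem_cons, List.not_mem_nil, or_false] at hw
      rcases hw with e' | e' | e' | e'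
      · exact Or.inl ⟨h10, hconj _ (hsand hg' e') 1 2 2 1 (by decide) (by decide) h12 (by decide +kernel)⟩
      · exact Or.inr (hconj _ (hsand hg' e') 1 2 2 0 (by decide) (by decide) h12 (by decide +kernel))
      · exact Or.inr (hconj _ (hsand hg' e') 0 1 2 0 (by decide) (by decide) h01 (by decide +kernel))
      · exact Or.inr (hconj _ (hsand hg' e') 0 2 2 0 (by decide) (by decide) h02 (by decide +kernel))
    · exact Or.inr (hconj _ (hsand hg e) 1 2 2 0 (by decide) (by decide) h12 (by decide +kernel))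
    · exact Or.inr (hconj _ (hsand hg e) 0 1 2 0 (by decide) (by decide) h01 (by decide +kernel))
    · exact Or.inr (hconj _ (hsand hg e) 0 2 2 0 (by decide) (by decide) h02 (by decide +kernel))
  obtain ⟨h10, h21, h20⟩ : tv 1 0 (by decide) ∈ R ∧ tv 2 1 (by decide) ∈ R ∧ tv 2 0 (by decide) ∈ R := by
    rcases key with ⟨p, q⟩ | r
    · exact ⟨p, q, hcomm (i := 2) (j := 1) (k := 0) (by decide) (by decide) (by decide) q p⟩
    · exact ⟨hcomm (i := 1) (j := 2) (k := 0) (by decide) (by decide) (by decide) h12 r,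
        hcomm (i := 2) (j := 0) (k := 1) (by decide) (by decide) (by decide) r h01, r⟩
  have htop : R.comap Matrix.SpecialLinearGroup.toGL = ⊤ := by
    refine CfsgLib.Classical.Linear.eq_top_of_transvection_mem fun i j hij x => ?_
    rw [Subgroup.mem_comap]
    rcases (by revert x; decide : x = 0 ∨ x = 1) with rfl | rfl
    · convert one_mem R using 1
      refine Units.ext ?_
      show Matrix.transvection i j (0 : ZMod 2) = _
      simp [Matrix.transvection]
    · fin_cases i <;> fin_cases j <;> first | exact absurd rfl hij | assumption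
  exact eq_top_iff.2 fun A _ => by
    obtain ⟨B, rfl⟩ := toGL_surjective A
    exact (htop ▸ Subgroup.mem_top B : B ∈ R.comap _)

/-- The block of a matrix on two coordinates. -/
def block (e : Fin 2 → Fin 3) (M : Matrix (Fin 3) (Fin 3) (ZMod 2)) : Matrix (Fin 2) (Fin 2) (ZMod 2) :=
  M.submatrix e e

/-- If a subgroup over the flag stabilizer has multiplicative blocks, it has a sign character. -/
theorem exists_sign {N : Type*} [Group N] (f : N →* GLT) (e : Fin 2 → Fin 3)
    (hmul : ∀ x y : N, block e ((f x).1 * (f y).1) = block e (f x).1 * block e (f y).1)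
    (he : Function.Injective e) :
    ∃ χ : N →* ℤˣ, (∀ x, f x = 1 → χ x = 1) ∧
      ∀ x, block e (f x).1 = !![1, 1; 0, 1] → χ x = -1 := by
  classical
  have hone : block e (f 1).1 = 1 := by
    rw [map_one, Units.val_one, block, Matrix.submatrix_one _ he]
  have hm : ∀ x y : N, block e (f (x * y)).1 = block e (f x).1 * block e (f y).1 := fun x y => by
    rw [map_mul, Units.val_mul, hmul]
  let P : N →* Equiv.Perm (Fin 2 → ZMod 2) :=
    { toFun := fun x =>
        { toFun := fun v => (block e (f x).1).mulVec v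
          invFun := fun v => (block e (f x⁻¹).1).mulVec v
          left_inv := fun v => by dsimp only; rw [Matrix.mulVec_mulVec, ← hm, inv_mul_cancel, hone, Matrix.one_mulVec]
          right_inv := fun v => by dsimp only; rw [Matrix.mulVec_mulVec, ← hm, mul_inv_cancel, hone, Matrix.one_mulVec] }
      map_one' := Equiv.ext fun v => by
        show (block e (f 1).1).mulVec v = v
        rw [hone, Matrix.one_mulVec]
      map_mul' := fun x y => Equiv.ext fun v => by
        show (block e (f (x * y)).1).mulVec v = (block e (f x).1).mulVec ((block e (f y).1).mulVec v)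
        rw [hm, Matrix.mulVec_mulVec] }
  refine ⟨Equiv.Perm.sign.comp P, fun x hx => ?_, fun x hx => ?_⟩
  · have : P x = 1 := Equiv.ext fun v => by
      show (block e (f x).1).mulVec v = v
      rw [hx, Units.val_one, block, Matrix.submatrix_one _ he, Matrix.one_mulVec]
    rw [MonoidHom.comp_apply, this, map_one]
  · have : P x = Equiv.swap (![0, 1]) (![1, 1]) := Equiv.ext fun v => by
      show (block e (f x).1).mulVec v = _
      rw [hx]
      revert v
      decide
    rw [MonoidHom.comp_apply, this, Equiv.Perm.sign_swap (by decide)]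

end CfsgLib.RudW34
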