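import Cfsg.Agent.Eq.Def_Transfer
import Mathlib
import Cfsg.Agent.RudW34.GLThree
import Cfsg.Agent.Signalizer.Hyperplane
import Cfsg.Agent.ThreeInvAut.Anisotropic

/-!
A group lying over `GL(3, 2)` with odd kernel which acts faithfully on an elementary abelian group of
order at most `2^8`, with a Sylow 2-subgroup fixing only one nontrivial vector, has trivial kernel.
-/

set_option autoImplicit false

namespace CfsgLib.RudW34

variable {V : Type*} [CommGroup V] [Finite V] {H : Type*} [Group H] [Finite H] (φ : H →* MulAut V)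

/-- The fixed points of a subgroup. -/
def fixV (K : Subgroup H) : Subgroup V where
  carrier := {v | ∀ k ∈ K, φ k v = v}
  one_mem' := fun k _ => map_one (φ k)
  mul_mem' := fun {a b} ha hb k hk => by rw [map_mul, ha k hk, hb k hk]
  inv_mem' := fun {a} ha k hk => by rw [map_inv, ha k hk]

/-- The norm of a subgroup. -/
noncomputable def normV (K : Subgroup H) : V →* V where
  toFun v := letI := Fintype.ofFinite K; ∏ k : K, φ (k : H) v
  map_one' := by simp
  map_mul' v w := by simp [Finset.prod_mul_distrib]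

theorem normV_apply (K : Subgroup H) [Fintype K] (v : V) : normV φ K v = ∏ k : K, φ (k : H) v := by
  show (letI := Fintype.ofFinite K; ∏ k : K, φ (k : H) v) = _
  convert rfl

theorem normV_mem (K : Subgroup H) (v : V) : normV φ K v ∈ fixV φ K := by
  haveI := Fintype.ofFinite K
  intro k hk
  rw [normV_apply, map_prod]
  refine Fintype.prod_equiv (Equiv.mulLeft (⟨k, hk⟩ : K)) _ _ fun j => ?_
  simp [MulAut.mul_apply]

theorem normV_fix (hV : ∀ v : V, v * v = 1) {K : Subgroup H} (hK : Odd (Nat.card K)) {v : V}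
    (hv : v ∈ fixV φ K) : normV φ K v = v := by
  haveI := Fintype.ofFinite K
  rw [normV_apply, Finset.prod_congr rfl fun (k : K) _ => hv _ k.2, Finset.prod_const, Finset.card_univ,
    ← Nat.card_eq_fintype_card]
  obtain ⟨j, hj⟩ := hK
  rw [hj, pow_succ, pow_mul, pow_two, hV, one_pow, one_mul]

theorem normV_stable (K : Subgroup H) {x : H} (hx : ∀ k ∈ K, x * k * x⁻¹ ∈ K) (v : V) :
    φ x (normV φ K v) = normV φ K (φ x v) := by
  haveI := Fintype.ofFinite K
  rw [normV_apply, normV_apply, map_prod]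
  have hinj : Function.Injective fun k : K => (⟨x * k * x⁻¹, hx _ k.2⟩ : K) := fun a b e =>
    Subtype.ext (by simpa using congrArg Subtype.val e)
  refine Fintype.prod_bijective _ (Finite.injective_iff_bijective.1 hinj) _ _ fun k => ?_
  simp [← MulAut.mul_apply, ← map_mul, mul_assoc]

variable (hV : ∀ v : V, v * v = 1) {S : Subgroup H} (hS : IsPGroup 2 S) {s : V}
  (hfix : ∀ v, (∀ x ∈ S, φ x v = v) → v = 1 ∨ v = s)
include hV hS hfix

theorem s_mem {U : Subgroup V} (hU : ∀ x ∈ S, ∀ v ∈ U, φ x v ∈ U) (hne : U ≠ ⊥) :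
    s ∈ U ∧ s ≠ 1 ∧ ∀ x ∈ S, φ x s = s := by
  letI : MulAction S U :=
    { smul := fun x v => ⟨φ x v, hU x x.2 v v.2⟩
      one_smul := fun v => Subtype.ext (show φ ((1 : S) : H) v = v by simp)
      mul_smul := fun x y v => Subtype.ext (show φ ((x * y : S) : H) v = φ x (φ y v) by
        rw [Subgroup.coe_mul, map_mul, MulAut.mul_apply]) }
  have h2 : 2 ∣ Nat.card U := by
    obtain ⟨v, hv, hv1⟩ := (Subgroup.ne_bot_iff_exists_ne_one.1 hne).elim fun v h =>
      (⟨v.1, v.2, fun e => h (Subtype.ext e)⟩ : ∃ v, v ∈ U ∧ v ≠ 1)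
    have ho : orderOf (⟨v, hv⟩ : U) = 2 := orderOf_eq_prime (Subtype.ext (by rw [pow_two]; exact hV v))
      (fun e => hv1 (congrArg Subtype.val e))
    exact ho ▸ orderOf_dvd_natCard _
  have h1 : (1 : U) ∈ MulAction.fixedPoints S U := fun x => Subtype.ext (map_one (φ _))
  obtain ⟨b, hb, hb1⟩ := hS.exists_fixed_point_of_prime_dvd_card_of_fixed_point U h2 h1
  have hbfix := hfix b.1 fun x hx => congrArg Subtype.val (hb ⟨x, hx⟩)
  rcases hbfix with e | e
  · exact absurd (Subtype.ext e.symm) hb1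
  · exact ⟨e ▸ b.2, fun e' => hb1 (Subtype.ext (by rw [e, e']; rfl)),
      fun x hx => e ▸ congrArg Subtype.val (hb ⟨x, hx⟩)⟩

omit hV hS in
theorem fix_of_commute (hs : ∀ x ∈ S, φ x s = s) (hs1 : s ≠ 1) {a : H} (h : ∀ x ∈ S, x * a = a * x) :
    φ a s = s := by
  rcases hfix (φ a s) (fun x hx => by
    rw [← MulAut.mul_apply, ← map_mul, h x hx, map_mul, MulAut.mul_apply, hs x hx]) with e | e
  · exact absurd ((MulEquiv.map_eq_one_iff (φ a)).1 e) hs1
  · exact e

/-- The core step: an elementary abelian subgroup of the kernel normal in a subgroup over `GL(3, 2)`. -/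
theorem elementary_eq_bot (hinj : Function.Injective φ) (hcard : Nat.card V ≤ 256) {H₁ : Subgroup H}
    (hSH : S ≤ H₁) (π : H →* GLT) (hπ : Function.Surjective (π.comp H₁.subtype))
    (hodd : Odd (Nat.card π.ker)) {q : ℕ} [Fact q.Prime] (hq : q ≠ 2) {A : Subgroup H}
    (hA : Cfsg.IsElementaryAbelian q A) (hn : ∀ x ∈ H₁, ∀ a ∈ A, x * a * x⁻¹ ∈ A) : A = ⊥ := by
  classical
  haveI := hA.1
  have hAc : ∀ x ∈ A, ∀ y ∈ A, x * y = y * x := fun x hx y hy =>
    congrArg Subtype.val (mul_comm' (⟨x, hx⟩ : A) ⟨y, hy⟩)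
  have hAp : IsPGroup q A := fun a => ⟨1, Subtype.ext (by simpa using hA.2 a a.2)⟩
  have hqodd : Odd q := (Fact.out : q.Prime).odd_of_ne_two hq
  have hAodd : ∀ K : Subgroup H, K ≤ A → Odd (Nat.card K) := fun K hK => by
    obtain ⟨n, e⟩ := IsPGroup.iff_card.1 (hAp.to_le hK)
    exact e ▸ hqodd.pow
  have hkerodd : Odd (Nat.card (π.comp H₁.subtype).ker) := by
    have e : (π.comp H₁.subtype).ker = π.ker.subgroupOf H₁ := rfl
    refine Odd.of_dvd_nat hodd ?_
    rw [e, ← Subgroup.card_subtype H₁, Subgroup.subgroupOf_map_subtype]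
    exact Subgroup.card_dvd_of_le inf_le_left
  have h2el : ∀ x ∈ S, ∃ e : ℕ, x ^ 2 ^ e = 1 := fun x hx => by
    obtain ⟨e, he⟩ := hS ⟨x, hx⟩
    exact ⟨e, congrArg Subtype.val he⟩
  by_contra hne
  obtain ⟨a₀, ha₀, ha₀1⟩ : ∃ a ∈ A, a ≠ 1 := by
    by_contra hcon; push Not at hcon
    exact hne ((Subgroup.eq_bot_iff_forall _).2 hcon)
  -- no common fixed point
  have hfixA : fixV φ A = ⊥ := by
    by_contra hF
    have hstab : ∀ x ∈ S, ∀ v ∈ fixV φ A, φ x v ∈ fixV φ A := fun x hx v hv k hk => by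
      have hk' := hn x⁻¹ (inv_mem (hSH hx)) k hk
      have := hv _ hk'
      rw [inv_inv, map_mul, map_mul, MulAut.mul_apply, MulAut.mul_apply, map_inv,
        MulAut.inv_apply, MulEquiv.symm_apply_eq] at this
      exact this
    obtain ⟨hsF, hs1⟩ := s_mem φ hV hS hfix hstab hF
    have hker : (normV φ A).ker = ⊥ := by
      by_contra hK
      have hstab' : ∀ x ∈ S, ∀ v ∈ (normV φ A).ker, φ x v ∈ (normV φ A).ker := fun x hx v hv => by
        rw [MonoidHom.mem_ker] at hv ⊢
        rw [← normV_stable φ A (fun k hk => hn x (hSH hx) k hk), hv, map_one]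
      obtain ⟨hsK, -⟩ := s_mem φ hV hS hfix hstab' hK
      rw [MonoidHom.mem_ker, normV_fix φ hV (hAodd A le_rfl) hsF] at hsK
      exact hs1.1 hsK
    refine ha₀1 (hinj ?_)
    rw [map_one]
    refine MulEquiv.ext fun v => ?_
    have hi := (MonoidHom.ker_eq_bot_iff _).1 hker
    have : normV φ A v = v := hi (normV_fix φ hV (hAodd A le_rfl) (normV_mem φ A v))
    rw [← this]
    exact normV_mem φ A v a₀ ha₀
  -- hyperplanes with fixed points
  let 𝒦 := {K : Subgroup H // K ≤ A ∧ K.relIndex A = q ∧ fixV φ K ≠ ⊥}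
  haveI : Fintype 𝒦 := Fintype.ofFinite _
  let Ψ : (∀ K : 𝒦, fixV φ K.1) → V := fun f => ∏ K : 𝒦, (f K : V)
  have hproj : ∀ K : 𝒦, ∀ f : (∀ L : 𝒦, fixV φ L.1), normV φ K.1 (Ψ f) = f K := by
    intro K f
    rw [map_prod, Finset.prod_eq_single K]
    · exact normV_fix φ hV (hAodd _ K.2.1) (f K).2
    · intro L _ hLK
      have hsup : K.1 ⊔ L.1 = A := by
        refine le_antisymm (sup_le K.2.1 L.2.1) ?_
        by_contra hcon
        have hle : K.1 ⊔ L.1 ≤ A := sup_le K.2.1 L.2.1
        have h1 := Subgroup.relIndex_mul_relIndex K.1 _ A le_sup_left hle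
        rw [K.2.2.1] at h1
        have hne1 : (K.1 ⊔ L.1).relIndex A ≠ 1 := fun e => hcon (Subgroup.relIndex_eq_one.1 e)
        have hprime : q.Prime := Fact.out
        have hKs : K.1.relIndex (K.1 ⊔ L.1) = 1 := by
          rcases (Nat.dvd_prime hprime).1 (Dvd.intro _ h1) with e | e
          · exact e
          · rw [e] at h1
            exact absurd (Nat.eq_of_mul_eq_mul_left hprime.pos (h1.trans (mul_one q).symm)) hne1
        have hLK' : L.1 ≤ K.1 := le_sup_right.trans (Subgroup.relIndex_eq_one.1 hKs)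
        refine hLK (Subtype.ext (le_antisymm hLK' ?_))
        have h2 := Subgroup.relIndex_mul_relIndex L.1 K.1 A hLK' K.2.1
        rw [L.2.2.1, K.2.2.1] at h2
        exact Subgroup.relIndex_eq_one.1 (Nat.eq_of_mul_eq_mul_right hprime.pos (h2.trans (one_mul q).symm))
      have hmem : normV φ K.1 (f L) ∈ fixV φ (K.1 ⊔ L.1) := by
        let St : Subgroup H :=
          { carrier := {x | φ x (normV φ K.1 (f L)) = normV φ K.1 (f L)}
            one_mem' := by simp
            mul_mem' := fun {a b} ha hb => by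
              show φ (a * b) _ = _
              rw [map_mul, MulAut.mul_apply, hb, ha]
            inv_mem' := fun {a} ha => by
              show φ a⁻¹ _ = _
              rw [map_inv, MulAut.inv_apply, MulEquiv.symm_apply_eq]
              exact ha.symm }
        have hle : K.1 ⊔ L.1 ≤ St := sup_le (fun x hx => normV_mem φ K.1 _ x hx) fun x hx => by
          show φ x _ = _
          rw [normV_stable φ K.1 (fun k hk => by
            rw [hAc x (L.2.1 hx) k (K.2.1 hk), mul_inv_cancel_right]; exact hk), (f L).2 x hx]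
        exact fun x hx => hle hx
      rw [hsup] at hmem
      have : normV φ K.1 (f L) ∈ fixV φ A := hmem
      rwa [hfixA, Subgroup.mem_bot] at this
    · intro hK; exact absurd (Finset.mem_univ K) hK
  have hΨ : Function.Injective Ψ := fun f g e => funext fun K => Subtype.ext (by
    rw [← hproj K f, ← hproj K g, e])
  have hsize : ∀ K : 𝒦, 4 ≤ Nat.card (fixV φ K.1) := by
    intro K
    have hp : IsPGroup 2 (fixV φ K.1) := fun v => ⟨1, Subtype.ext (by rw [pow_one, pow_two]; exact hV v)⟩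
    obtain ⟨m, hm⟩ := IsPGroup.iff_card.1 hp
    rcases m with _ | _ | m
    · exact absurd (Subgroup.card_eq_one.1 hm) K.2.2.2
    · exfalso
      obtain ⟨v, hv, hv1⟩ : ∃ v ∈ fixV φ K.1, v ≠ 1 := by
        by_contra hcon; push Not at hcon
        exact K.2.2.2 ((Subgroup.eq_bot_iff_forall _).2 hcon)
      have hall : ∀ w ∈ fixV φ K.1, w = 1 ∨ w = v := fun w hw => by
        by_contra hcon; push Not at hcon
        have h3 : ({1, v, w} : Set V).ncard = 3 :=
          Set.ncard_eq_three.2 ⟨1, v, w, hv1.symm, Ne.symm hcon.1, Ne.symm hcon.2, rfl⟩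
        have hsub : ({1, v, w} : Set V) ⊆ (fixV φ K.1 : Set V) := by
          intro y hy
          simp only [Set.mem_insert_iff, Set.mem_singleton_iff] at hy
          rcases hy with rfl | rfl | rfl
          exacts [one_mem _, hv, hw]
        have hle := Set.ncard_le_ncard hsub (Set.toFinite _)
        rw [h3, ← Nat.card_coe_set_eq] at hle
        exact absurd (hle.trans_eq hm) (by norm_num)
      have hvA : v ∈ fixV φ A := fun a ha => by
        have hmem : φ a v ∈ fixV φ K.1 := fun k hk => by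
          rw [← MulAut.mul_apply, ← map_mul, hAc k (K.2.1 hk) a ha, map_mul, MulAut.mul_apply, hv k hk]
        exact (hall _ hmem).resolve_left fun e => hv1 ((MulEquiv.map_eq_one_iff (φ a)).1 e)
      rw [hfixA, Subgroup.mem_bot] at hvA
      exact hv1 hvA
    · rw [hm, pow_succ, pow_succ]
      have : 0 < 2 ^ m := Nat.two_pow_pos m
      omega
  have hn4 : Nat.card 𝒦 ≤ 4 := by
    have h1 := Nat.card_le_card_of_injective Ψ hΨ
    rw [Nat.card_pi] at h1
    have h2 : 4 ^ Fintype.card 𝒦 ≤ 256 := by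
      refine le_trans ?_ (h1.trans hcard)
      rw [← Finset.card_univ, ← Finset.prod_const]
      exact Finset.prod_le_prod' fun K _ => hsize K
    rw [Nat.card_eq_fintype_card]
    exact (Nat.pow_le_pow_iff_right (by norm_num : 1 < 4)).1 (h2.trans_eq (by norm_num))
  -- `H₁` permutes them
  let cj : H₁ → 𝒦 → 𝒦 := fun x K => ⟨K.1.map (MulAut.conj (x : H)).toMonoidHom, by
    refine ⟨?_, ?_, ?_⟩
    · rintro _ ⟨k, hk, rfl⟩
      simpa using hn _ x.2 k (K.2.1 hk)
    · have hA' : A.map (MulAut.conj (x : H)).toMonoidHom = A := by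
        refine le_antisymm ?_ fun a ha => ?_
        · rintro _ ⟨a, ha, rfl⟩
          simpa using hn _ x.2 a ha
        · exact ⟨(x : H)⁻¹ * a * x, by simpa using hn _ (inv_mem x.2) a ha, by simp [mul_assoc]⟩
      calc (K.1.map (MulAut.conj (x : H)).toMonoidHom).relIndex A
          = (K.1.map (MulAut.conj (x : H)).toMonoidHom).relIndex (A.map (MulAut.conj (x : H)).toMonoidHom) := by
            rw [hA']
        _ = q := by
          rw [Subgroup.relIndex_map_map_of_injective _ _ (MulAut.conj (x : H)).injective]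
          exact K.2.2.1
    · intro hbot
      obtain ⟨v, hv, hv1⟩ : ∃ v ∈ fixV φ K.1, v ≠ 1 := by
        by_contra hcon; push Not at hcon
        exact K.2.2.2 ((Subgroup.eq_bot_iff_forall _).2 hcon)
      refine hv1 ((MulEquiv.map_eq_one_iff (φ (x : H))).1 (Subgroup.mem_bot.1 (hbot ▸ ?_)))
      rintro _ ⟨k, hk, rfl⟩
      show φ ((x : H) * k * (x : H)⁻¹) (φ (x : H) v) = φ (x : H) v
      rw [← MulAut.mul_apply, ← map_mul, inv_mul_cancel_right, map_mul, MulAut.mul_apply, hv k hk]⟩
  letI : MulAction H₁ 𝒦 :=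
    { smul := cj
      one_smul := fun K => Subtype.ext (show K.1.map (MulAut.conj ((1 : H₁) : H)).toMonoidHom = K.1 by
        ext y; simp [Subgroup.mem_map])
      mul_smul := fun x y K => Subtype.ext (show K.1.map (MulAut.conj ((x * y : H₁) : H)).toMonoidHom =
        (K.1.map (MulAut.conj (y : H)).toMonoidHom).map (MulAut.conj (x : H)).toMonoidHom by
        rw [Subgroup.map_map]; ext z; simp [Subgroup.mem_map, mul_assoc]) }
  haveI : Group.IsSolvable (Equiv.Perm 𝒦) := CfsgLib.ThreeInvAut.solvable_perm hn4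
  have hSfix : ∀ K : 𝒦, s ∈ fixV φ K.1 ∧ s ≠ 1 ∧ ∀ x ∈ S, φ x s = s := by
    intro K
    refine s_mem φ hV hS hfix (fun x hx v hv k hk => ?_) K.2.2.2
    have h1 := kill_two (π.comp H₁.subtype) hπ hkerodd (MulAction.toPermHom H₁ 𝒦) (t := ⟨x, hSH hx⟩)
      (by obtain ⟨e, he⟩ := h2el x hx; exact ⟨e, Subtype.ext (by simpa using he)⟩)
    have h2 : K.1.map (MulAut.conj x).toMonoidHom = K.1 :=
      congrArg Subtype.val (Equiv.ext_iff.1 h1 K)
    rw [← h2] at hk
    obtain ⟨j, hj, rfl⟩ := hk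
    show φ (x * j * x⁻¹) (φ x v) = φ x v
    rw [← MulAut.mul_apply, ← map_mul, inv_mul_cancel_right, map_mul, MulAut.mul_apply, hv j hj]
  have huniq : ∀ K L : 𝒦, K = L := by
    intro K L
    by_contra hne
    let f : (∀ M : 𝒦, fixV φ M.1) := fun M => if M = L then ⟨s, (hSfix M).1⟩ else 1
    have hf : Ψ f = s := by
      show ∏ M : 𝒦, (f M : V) = s
      rw [Finset.prod_eq_single L (fun M _ hM => by simp [f, hM]) (fun h => absurd (Finset.mem_univ L) h)]
      simp [f]
    have := hproj K f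
    rw [hf, normV_fix φ hV (hAodd _ K.2.1) (hSfix K).1] at this
    simp [f, hne] at this
    exact (hSfix K).2.1 this
  -- generation by fixed points of hyperplanes
  let U : Subgroup V := ⨆ K : 𝒦, fixV φ K.1
  have hU : U = ⊤ := by
    refine eq_top_iff.2 fun v _ => ?_
    have hA' : Cfsg.IsElementaryAbelian q (A.map (SemidirectProduct.inr : H →* V ⋊[φ] H)) := by
      refine ⟨⟨⟨?_⟩⟩, ?_⟩
      · rintro ⟨_, x, hx, rfl⟩ ⟨_, y, hy, rfl⟩
        exact Subtype.ext (by simp only [Subgroup.coe_mul, ← map_mul, hAc x hx y hy])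
      · rintro _ ⟨x, hx, rfl⟩
        rw [← map_pow, hA.2 x hx, map_one]
    have hX : ¬ q ∣ Nat.card (SemidirectProduct.inl : V →* V ⋊[φ] H).range := by
      intro hd
      rw [← Nat.card_congr (MonoidHom.ofInjective SemidirectProduct.inl_injective).toEquiv] at hd
      obtain ⟨x, hx⟩ := exists_prime_orderOf_dvd_card' q hd
      have h2 : orderOf x ∣ 2 := orderOf_dvd_of_pow_eq_one (by rw [pow_two]; exact hV x)
      rw [hx] at h2
      exact hq ((Nat.prime_dvd_prime_iff_eq Fact.out Nat.prime_two).1 h2)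
    have hnorm : A.map (SemidirectProduct.inr : H →* V ⋊[φ] H) ≤
        Subgroup.normalizer ((SemidirectProduct.inl : V →* V ⋊[φ] H).range : Set (V ⋊[φ] H)) := by
      rw [SemidirectProduct.range_inl_eq_ker_rightHom]
      exact Subgroup.le_normalizer_of_normal
    haveI : Finite (V ⋊[φ] H) := Finite.of_equiv _ SemidirectProduct.equivProd.symm
    have hle := CfsgLib.Hyperplane.le_iSup_centralizer hA' hX hnorm
    have hsub : (⨆ J : {J : Subgroup (V ⋊[φ] H) // J ≤ A.map SemidirectProduct.inr ∧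
        J.relIndex (A.map SemidirectProduct.inr) ∣ q},
        (SemidirectProduct.inl : V →* V ⋊[φ] H).range ⊓
          Subgroup.centralizer ((J : Subgroup (V ⋊[φ] H)) : Set (V ⋊[φ] H))) ≤
        U.map SemidirectProduct.inl := by
      refine iSup_le fun J => ?_
      rintro _ ⟨⟨w, rfl⟩, hw⟩
      refine ⟨w, ?_, rfl⟩
      by_cases hw1 : w = 1
      · rw [hw1]; exact one_mem _
      let K := A ⊓ J.1.comap SemidirectProduct.inr
      have hwK : w ∈ fixV φ K := fun k hk => by
        have h := Subgroup.mem_centralizer_iff.1 hw _ hk.2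
        apply SemidirectProduct.inl_injective (φ := φ)
        rw [SemidirectProduct.inl_aut, h, mul_assoc, ← map_mul, mul_inv_cancel, map_one, mul_one]
      have hrel : K.relIndex A ∣ q := by
        show (A ⊓ J.1.comap SemidirectProduct.inr).relIndex A ∣ q
        rw [inf_comm, Subgroup.inf_relIndex_right, Subgroup.relIndex_comap]
        exact J.2.2
      rcases (Nat.dvd_prime Fact.out).1 hrel with e | e
      · exfalso
        have : w ∈ fixV φ A := fun k hk => hwK k (Subgroup.relIndex_eq_one.1 e hk)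
        rw [hfixA, Subgroup.mem_bot] at this
        exact hw1 this
      · exact (le_iSup (fun K : 𝒦 => fixV φ K.1)
          ⟨K, inf_le_left, e, fun hb => hw1 (Subgroup.mem_bot.1 (hb ▸ hwK))⟩) hwK
    obtain ⟨w, hw, e⟩ := hsub (hle ⟨v, rfl⟩)
    exact SemidirectProduct.inl_injective e ▸ hw
  obtain ⟨K₀⟩ : Nonempty 𝒦 := by
    by_contra hne'
    rw [not_nonempty_iff] at hne'
    have hU' : U = ⊥ := iSup_of_empty _
    refine ha₀1 (hinj ?_)
    rw [map_one]
    refine MulEquiv.ext fun v => ?_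
    have : v = 1 := Subgroup.mem_bot.1 (hU' ▸ hU ▸ Subgroup.mem_top v)
    rw [this]; simp
  have hK0 : K₀.1 = ⊥ := by
    rw [Subgroup.eq_bot_iff_forall]
    intro k hk
    refine hinj ?_
    rw [map_one]
    refine MulEquiv.ext fun v => ?_
    have hv : v ∈ fixV φ K₀.1 :=
      (show U ≤ fixV φ K₀.1 from iSup_le fun L => by rw [huniq L K₀]) (hU ▸ Subgroup.mem_top v : v ∈ U)
    exact hv k hk
  have hAq : Nat.card A = q := by
    have := K₀.2.2.1
    rwa [hK0, Subgroup.relIndex_bot_left] at this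
  haveI : IsCyclic A := isCyclic_of_prime_card hAq
  haveI : Group.IsSolvable (MulAut A) :=
    Group.isSolvable_of_comm fun a b => (IsCyclic.mulAutMulEquiv A).injective (by rw [map_mul, map_mul, mul_comm])
  let c : H₁ →* MulAut A :=
    { toFun := fun x =>
        { toFun := fun a => ⟨x * a * (x : H)⁻¹, hn _ x.2 _ a.2⟩
          invFun := fun a => ⟨(x : H)⁻¹ * a * x, by simpa using hn _ (inv_mem x.2) _ a.2⟩
          left_inv := fun a => Subtype.ext (by simp [mul_assoc])
          right_inv := fun a => Subtype.ext (by simp [mul_assoc])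
          map_mul' := fun a b => Subtype.ext (by simp [mul_assoc]) }
      map_one' := MulEquiv.ext fun a => Subtype.ext (by simp)
      map_mul' := fun x y => MulEquiv.ext fun a => Subtype.ext (by simp [mul_assoc]) }
  have hcomm : ∀ x ∈ S, x * a₀ = a₀ * x := by
    intro x hx
    have h1 := kill_two (π.comp H₁.subtype) hπ hkerodd c (t := ⟨x, hSH hx⟩)
      (by obtain ⟨e, he⟩ := h2el x hx; exact ⟨e, Subtype.ext (by simpa using he)⟩)
    have h2 : x * a₀ * x⁻¹ = a₀ := congrArg Subtype.val (MulEquiv.ext_iff.1 h1 ⟨a₀, ha₀⟩)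
    exact mul_inv_eq_iff_eq_mul.1 h2
  obtain ⟨-, hs1, hsfix⟩ := hSfix K₀
  have hsa := fix_of_commute φ hfix hsfix hs1 hcomm
  have hgen : Subgroup.zpowers (⟨a₀, ha₀⟩ : A) = ⊤ := by
    haveI := Fact.mk (Fact.out : q.Prime)
    exact zpowers_eq_top_of_prime_card hAq fun e => ha₀1 (congrArg Subtype.val e)
  have hsA : s ∈ fixV φ A := fun a ha => by
    obtain ⟨j, hj⟩ := (hgen ▸ Subgroup.mem_top _ : (⟨a, ha⟩ : A) ∈ Subgroup.zpowers ⟨a₀, ha₀⟩)
    have hj' : a₀ ^ j = a := congrArg Subtype.val hj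
    let St : Subgroup H :=
      { carrier := {x | φ x s = s}
        one_mem' := by simp
        mul_mem' := fun {a b} ha hb => by show φ (a * b) s = s; rw [map_mul, MulAut.mul_apply, hb, ha]
        inv_mem' := fun {a} ha => by
          show φ a⁻¹ s = s
          rw [map_inv, MulAut.inv_apply, MulEquiv.symm_apply_eq]; exact ha.symm }
    exact hj' ▸ (St.zpow_mem hsa j)
  rw [hfixA, Subgroup.mem_bot] at hsA
  exact hs1 hsA

omit hS hfix in
theorem ker_eq_bot (hinj : Function.Injective φ) (hcard : Nat.card V ≤ 256) (π : H →* GLT)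
    (hπ : Function.Surjective π) (hodd : Odd (Nat.card π.ker)) (T : Sylow 2 H)
    (hT : ∃ s, ∀ v, (∀ x ∈ (T : Subgroup H), φ x v = v) → v = 1 ∨ v = s) : π.ker = ⊥ := by
  classical
  by_contra hne
  obtain ⟨q, hq, hqd⟩ := Nat.exists_prime_and_dvd (fun e => hne (Subgroup.card_eq_one.1 e))
  haveI := Fact.mk hq
  have hq2 : q ≠ 2 := fun e => by
    rw [e] at hqd; exact (Nat.not_even_iff_odd.2 hodd) (even_iff_two_dvd.2 hqd)
  let P : Sylow q π.ker := default
  set Q := (P : Subgroup π.ker).map π.ker.subtype with hQ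
  set H₁ := Subgroup.normalizer (Q : Set H) with hH₁
  have hsup : H₁ ⊔ π.ker = ⊤ := Sylow.normalizer_sup_eq_top P
  have hsurj : Function.Surjective (π.comp H₁.subtype) := by
    intro y
    obtain ⟨h, rfl⟩ := hπ y
    have hmem : h ∈ ((H₁ ⊔ π.ker : Subgroup H) : Set H) := by rw [hsup]; trivial
    rw [Subgroup.mul_normal] at hmem
    obtain ⟨x, hx, k, hk, rfl⟩ := hmem
    exact ⟨⟨x, hx⟩, by simp [MonoidHom.mem_ker.1 hk]⟩
  -- a Sylow 2-subgroup inside the normalizer
  let S₁ : Sylow 2 H₁ := default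
  have hidx : ¬ 2 ∣ H₁.index := by
    intro hd
    have e1 := (π.comp H₁.subtype).ker.card_mul_index
    have e2 := π.ker.card_mul_index
    rw [Subgroup.index_ker, MonoidHom.range_eq_top.2 hsurj, Subgroup.card_top] at e1
    rw [Subgroup.index_ker, MonoidHom.range_eq_top.2 hπ, Subgroup.card_top] at e2
    have e3 := H₁.card_mul_index
    rw [← e1, ← e2, mul_right_comm] at e3
    have e4 := Nat.eq_of_mul_eq_mul_right Nat.card_pos e3
    exact (Nat.not_even_iff_odd.2 hodd) (even_iff_two_dvd.2 (e4 ▸ dvd_mul_of_dvd_right hd _))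
  set S₂ := (S₁ : Subgroup H₁).map H₁.subtype
  have hS₂ : IsPGroup 2 S₂ := S₁.2.map _
  have hcard₂ : ¬ 2 ∣ S₂.index := by
    rw [Subgroup.index_map_subtype, Nat.Prime.dvd_mul Nat.prime_two]
    exact not_or.2 ⟨S₁.not_dvd_index, hidx⟩
  let T' : Sylow 2 H := hS₂.toSylow hcard₂
  obtain ⟨g, hg⟩ := MulAction.exists_smul_eq H T T'
  obtain ⟨s, hs⟩ := hT
  have hfix' : ∀ v, (∀ x ∈ S₂, φ x v = v) → v = 1 ∨ v = φ g s := by
    intro v hv
    have h' : ∀ x ∈ (T : Subgroup H), φ x ((φ g).symm v) = (φ g).symm v := by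
      intro x hx
      have hm : g * x * g⁻¹ ∈ S₂ := by
        show g * x * g⁻¹ ∈ (T' : Subgroup H)
        rw [← hg, Sylow.coe_subgroup_smul]
        exact ⟨x, hx, by simp⟩
      have := hv _ hm
      rw [map_mul, map_mul, MulAut.mul_apply, MulAut.mul_apply, map_inv, MulAut.inv_apply] at this
      rw [MulEquiv.eq_symm_apply]
      exact this
    rcases hs _ h' with e | e
    · exact Or.inl (by rw [MulEquiv.symm_apply_eq, map_one] at e; exact e)
    · exact Or.inr (by rw [MulEquiv.symm_apply_eq] at e; exact e)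
  -- elementary subgroup of the centre of `P`
  let A : Subgroup H :=
    { carrier := {a | a ∈ Q ∧ (∀ y ∈ Q, y * a = a * y) ∧ a ^ q = 1}
      one_mem' := ⟨one_mem _, fun y _ => by simp, one_pow _⟩
      mul_mem' := fun {a b} ha hb => ⟨mul_mem ha.1 hb.1,
        fun y hy => by rw [← mul_assoc, ha.2.1 y hy, mul_assoc, hb.2.1 y hy, mul_assoc],
        by rw [(show Commute a b from (ha.2.1 b hb.1).symm).mul_pow, ha.2.2, hb.2.2, one_mul]⟩
      inv_mem' := fun {a} ha => ⟨inv_mem ha.1,
        fun y hy => ((show Commute y a from ha.2.1 y hy).inv_right), by rw [inv_pow, ha.2.2, inv_one]⟩ }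
  have hA : Cfsg.IsElementaryAbelian q A := by
    refine ⟨⟨⟨fun a b => Subtype.ext ?_⟩⟩, fun a ha => ha.2.2⟩
    exact b.2.2.1 a a.2.1
  have hn : ∀ x ∈ H₁, ∀ a ∈ A, x * a * x⁻¹ ∈ A := by
    intro x hx a ha
    refine ⟨(Subgroup.mem_normalizer_iff.1 hx a).1 ha.1, fun y hy => ?_, ?_⟩
    · have hy' : x⁻¹ * y * x ∈ Q := by
        simpa using (Subgroup.mem_normalizer_iff.1 (inv_mem hx) y).1 hy
      have e := ha.2.1 _ hy'
      calc y * (x * a * x⁻¹) = x * ((x⁻¹ * y * x) * a) * x⁻¹ := by group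
        _ = x * a * x⁻¹ * y := by rw [e]; group
    · rw [conj_pow, ha.2.2, mul_one, mul_inv_cancel]
  have hbot := elementary_eq_bot φ hV hS₂ hfix' hinj hcard (Subgroup.map_subtype_le _) π hsurj hodd hq2 hA hn
  have hQp : IsPGroup q Q := P.2.map _
  have hQne : Nontrivial Q := by
    rw [Subgroup.nontrivial_iff_ne_bot]
    intro e
    have hP : (P : Subgroup π.ker) = ⊥ :=
      (Subgroup.map_eq_bot_iff_of_injective _ π.ker.subtype_injective).1 e
    exact P.ne_bot_of_dvd_card hqd hP
  haveI := hQp.center_nontrivial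
  obtain ⟨z, hz⟩ := exists_prime_orderOf_dvd_card' (G := Subgroup.center Q) q (by
    obtain ⟨n, hn'⟩ := IsPGroup.iff_card.1 (hQp.to_subgroup (Subgroup.center Q))
    rcases n with _ | n
    · exact absurd hn' (by rw [pow_zero]; exact Finite.one_lt_card.ne')
    · rw [hn', pow_succ]; exact dvd_mul_left q _)
  have hzA : ((z : Q) : H) ∈ A := ⟨(z : Q).2,
    fun y hy => congrArg Subtype.val (Subgroup.mem_center_iff.1 z.2 ⟨y, hy⟩), by
      have h := pow_orderOf_eq_one z
      rw [hz] at h
      have := congrArg (fun t : Subgroup.center Q => ((t : Q) : H)) h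
      simpa using this⟩
  rw [hbot, Subgroup.mem_bot] at hzA
  have : z = 1 := Subtype.ext (Subtype.ext hzA)
  rw [this, orderOf_one] at hz
  exact hq.one_lt.ne hz

end CfsgLib.RudW34
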