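import Cfsg.Agent.RudW34.Odd
import Cfsg.Agent.RudW34.Free

/-!
The kernel of the action of `N(W)` on `W'`: it acts trivially on `W / W'`, and is the product of `W`
with the odd core.
-/

set_option autoImplicit false

namespace CfsgLib.RudW34

open Cfsg

variable {N : Type*} [Group N] [Finite N]

/-- A subgroup of a Sylow 2-subgroup containing its intersection with a normal subgroup. -/
theorem exists_sylow_inter (T : Sylow 2 N) {W C : Subgroup N} [C.Normal] (hWT : W ≤ (T : Subgroup N))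
    (hWC : W ≤ C) (hC : ∀ t ∈ (T : Subgroup N), t ∈ C → t ∈ W) :
    ∃ S : Sylow 2 C, (S : Subgroup C) = W.subgroupOf C := by
  haveI : Fact (Nat.Prime 2) := ⟨Nat.prime_two⟩
  have hW : IsPGroup 2 (W.subgroupOf C) :=
    (T.2.to_le hWT).of_equiv (Subgroup.subgroupOfEquivOfLe hWC).symm
  obtain ⟨S, hS⟩ := hW.exists_le_sylow
  obtain ⟨T', hT'⟩ := (S.2.map C.subtype).exists_le_sylow
  obtain ⟨g, hg⟩ := MulAction.exists_smul_eq N T' T
  have hmem : ∀ x ∈ (S : Subgroup C), g * (x : N) * g⁻¹ ∈ W := fun x hx => by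
    refine hC _ ?_ (‹C.Normal›.conj_mem _ x.2 g)
    rw [← hg, Sylow.coe_subgroup_smul]
    exact ⟨x, hT' ⟨x, hx, rfl⟩, by simp⟩
  refine ⟨S, le_antisymm (fun x hx => ?_) hS⟩
  have hle : ((S : Subgroup C).map C.subtype).map (MulAut.conj g).toMonoidHom ≤ W := by
    rintro _ ⟨_, ⟨y, hy, rfl⟩, rfl⟩
    simpa using hmem y hy
  have h1 := Subgroup.card_le_of_le hle
  rw [← Nat.card_congr ((((S : Subgroup C).map C.subtype)).equivMapOfInjective (MulAut.conj g).toMonoidHom
    (MulAut.conj g).injective).toEquiv, Subgroup.card_subtype C] at h1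
  have h2 : (S : Subgroup C) = W.subgroupOf C := (Subgroup.eq_of_le_of_card_ge hS (by
    rwa [Nat.card_congr (Subgroup.subgroupOfEquivOfLe hWC).toEquiv])).symm
  exact h2 ▸ hx

/-- An element of odd order centralizing `D` and acting trivially on `W / D` centralizes `W`. -/
theorem commute_of_odd {D W : Subgroup N} (hexp : ∀ d ∈ D, d * d = 1) {σ : N}
    (hσ : ∀ d ∈ D, σ * d = d * σ) (hn : Odd (orderOf σ))
    (hact : ∀ w ∈ W, σ * w * σ⁻¹ * w⁻¹ ∈ D) : ∀ w ∈ W, σ * w = w * σ := by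
  intro w hw
  set d := σ * w * σ⁻¹ * w⁻¹ with hd
  have hdD := hact w hw
  have key : ∀ k : ℕ, σ ^ k * w = d ^ k * w * σ ^ k := by
    intro k
    induction k with
    | zero => simp
    | succ k ih =>
      have hdk : σ * d ^ k = d ^ k * σ := hσ _ (pow_mem hdD k)
      have hw' : σ * w = d * w * σ := by rw [hd]; group
      calc σ ^ (k + 1) * w = σ * (σ ^ k * w) := by rw [pow_succ', mul_assoc]
        _ = (σ * d ^ k) * w * σ ^ k := by rw [ih]; group
        _ = d ^ k * (σ * w) * σ ^ k := by rw [hdk]; group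
        _ = d ^ (k + 1) * w * σ ^ (k + 1) := by rw [hw', pow_succ, pow_succ']; group
  have h1 := key (orderOf σ)
  rw [pow_orderOf_eq_one, one_mul, mul_one] at h1
  obtain ⟨j, hj⟩ := hn
  rw [hj, pow_succ, pow_mul, pow_two, hexp d hdD, one_pow, one_mul] at h1
  have hd1 : d = 1 := by simpa using h1.symm
  rw [hd, mul_inv_eq_one, mul_inv_eq_iff_eq_mul] at hd1
  exact hd1

theorem kernel (T : Sylow 2 N) (W D : Subgroup N) [W.Normal] [D.Normal] (hWT : W ≤ (T : Subgroup N))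
    (hDW : D ≤ W) (hD_eq : D = ⁅W, W⁆) (hcentral : ∀ d ∈ D, ∀ w ∈ W, w * d = d * w)
    (hsq : ∀ w ∈ W, w * w ∈ D) (hexp : ∀ d ∈ D, d * d = 1)
    (hcent : ∀ t ∈ (T : Subgroup N), (∀ d ∈ D, t * d = d * t) → t ∈ W)
    (hbound : D.relIndex W ≤ 256) {s : N}
    (hfix : ∀ v ∈ W, (∀ t ∈ (T : Subgroup N), t * v * t⁻¹ * v⁻¹ ∈ D) → v ∈ D ∨ s⁻¹ * v ∈ D)
    (ρ : N →* GLT) (hρ : Function.Surjective ρ) (hker : ∀ x, ρ x = 1 ↔ ∀ d ∈ D, x * d = d * x) :
    ρ.ker = W ⊔ oddCore N ∧ ∀ x, ρ x = 1 → ∀ w ∈ W, x * w * x⁻¹ * w⁻¹ ∈ D := by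
  classical
  haveI : Fact (Nat.Prime 2) := ⟨Nat.prime_two⟩
  set Dw := D.subgroupOf W with hDw
  let V := W ⧸ Dw
  have hV : ∀ v : V, v * v = 1 := fun v => by
    induction v using QuotientGroup.induction_on with | _ v => ?_
    rw [← QuotientGroup.mk_mul]
    exact (QuotientGroup.eq_one_iff _).2 (hsq v v.2)
  have hVc : ∀ u v : V, u * v = v * u := fun u v => by
    rw [← inv_eq_of_mul_eq_one_right (hV (u * v)), mul_inv_rev, inv_eq_of_mul_eq_one_right (hV u),
      inv_eq_of_mul_eq_one_right (hV v)]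
  letI : CommGroup V := { (inferInstance : Group (W ⧸ Dw)) with mul_comm := hVc }
  have hmap : ∀ x : N, Dw.map (MulAut.conjNormal x : MulAut W).toMonoidHom = Dw := fun x => by
    refine le_antisymm ?_ fun w hw => ?_
    · rintro _ ⟨w, hw, rfl⟩
      show ((MulAut.conjNormal x w : W) : N) ∈ D
      rw [MulAut.conjNormal_apply]
      exact ‹D.Normal›.conj_mem _ hw x
    · refine ⟨MulAut.conjNormal x⁻¹ w, ?_, ?_⟩
      · show ((MulAut.conjNormal x⁻¹ w : W) : N) ∈ D
        rw [MulAut.conjNormal_apply]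
        exact ‹D.Normal›.conj_mem _ hw _
      · exact Subtype.ext (by simp [MulAut.conjNormal_apply, mul_assoc])
  let β : N →* MulAut V :=
    { toFun := fun x => QuotientGroup.congr Dw Dw (MulAut.conjNormal x) (hmap x)
      map_one' := MulEquiv.ext fun v => by
        induction v using QuotientGroup.induction_on with | _ v => ?_
        simp [V]
      map_mul' := fun x y => MulEquiv.ext fun v => by
        induction v using QuotientGroup.induction_on with | _ v => ?_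
        rw [MulAut.mul_apply]
        simp [V, map_mul]
        rfl }
  have hβ : ∀ (x : N) (w : W), β x (w : V) = ((MulAut.conjNormal x w : W) : V) := fun x w => rfl
  have hfixV : ∀ (x : N) (w : W), β x (w : V) = (w : V) ↔ x * w * x⁻¹ * (w : N)⁻¹ ∈ D := fun x w => by
    rw [hβ, QuotientGroup.eq, Subgroup.mem_subgroupOf, Subgroup.coe_mul, Subgroup.coe_inv,
      MulAut.conjNormal_apply]
    have e : (x * w * x⁻¹)⁻¹ * w = (x * (w : N) * x⁻¹)⁻¹ * (x * w * x⁻¹ * (w : N)⁻¹)⁻¹ * (x * w * x⁻¹) := by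
      group
    rw [e]
    constructor
    · intro h
      have := ‹D.Normal›.conj_mem _ h (x * w * x⁻¹)
      simpa [mul_assoc] using inv_mem this
    · intro h
      have := ‹D.Normal›.conj_mem _ (inv_mem h) (x * w * x⁻¹)⁻¹
      simpa [mul_assoc] using this
  -- acting trivially on the quotient implies centralizing `D`
  have hle : β.ker ≤ ρ.ker := by
    intro x hx
    refine MonoidHom.mem_ker.2 ((hker x).2 ?_)
    have hall : ∀ w ∈ W, x * w * x⁻¹ * w⁻¹ ∈ D := fun w hw =>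
      (hfixV x ⟨w, hw⟩).1 (by rw [MonoidHom.mem_ker.1 hx]; rfl)
    intro d hd
    rw [hD_eq, Subgroup.commutator_def] at hd
    suffices x * d * x⁻¹ = d by rwa [mul_inv_eq_iff_eq_mul] at this
    refine Subgroup.closure_induction (p := fun y _ => x * y * x⁻¹ = y) ?_ (by simp) ?_ ?_ hd
    · rintro _ ⟨u, hu, v, hv, rfl⟩
      rw [commutatorElement_def]
      set d₁ := x * u * x⁻¹ * u⁻¹ with hd₁
      set d₂ := x * v * x⁻¹ * v⁻¹ with hd₂
      have c1 : ∀ y ∈ W, y * d₁ = d₁ * y := fun y hy => hcentral _ (hall u hu) y hy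
      have c2 : ∀ y ∈ W, y * d₂ = d₂ * y := fun y hy => hcentral _ (hall v hv) y hy
      calc x * (u * v * u⁻¹ * v⁻¹) * x⁻¹
          = (x * u * x⁻¹) * (x * v * x⁻¹) * (x * u * x⁻¹)⁻¹ * (x * v * x⁻¹)⁻¹ := by group
        _ = (d₁ * u) * (d₂ * v) * (d₁ * u)⁻¹ * (d₂ * v)⁻¹ := by rw [hd₁, hd₂]; group
        _ = d₁ * (u * d₂) * (v * u⁻¹) * d₁⁻¹ * v⁻¹ * d₂⁻¹ := by group
        _ = d₁ * (d₂ * u) * (v * u⁻¹) * d₁⁻¹ * v⁻¹ * d₂⁻¹ := by rw [c2 u hu]
        _ = (d₁ * d₂) * ((u * v * u⁻¹) * d₁⁻¹) * v⁻¹ * d₂⁻¹ := by group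
        _ = (d₁ * d₂) * (d₁⁻¹ * (u * v * u⁻¹)) * v⁻¹ * d₂⁻¹ := by
          rw [(show Commute (u * v * u⁻¹) d₁ from c1 _ (mul_mem (mul_mem hu hv) (inv_mem hu))).inv_right.eq]
        _ = (d₁ * d₂ * d₁⁻¹) * ((u * v * u⁻¹ * v⁻¹) * d₂⁻¹) := by group
        _ = (d₁ * d₂ * d₁⁻¹) * (d₂⁻¹ * (u * v * u⁻¹ * v⁻¹)) := by
          rw [(show Commute (u * v * u⁻¹ * v⁻¹) d₂ from
            c2 _ (mul_mem (mul_mem (mul_mem hu hv) (inv_mem hu)) (inv_mem hv))).inv_right.eq]
        _ = u * v * u⁻¹ * v⁻¹ := by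
          rw [show d₁ * d₂ = d₂ * d₁ from c2 d₁ (hDW (hall u hu))]; group
    · intro y z _ _ hy hz
      rw [show x * (y * z) * x⁻¹ = (x * y * x⁻¹) * (x * z * x⁻¹) by group, hy, hz]
    · intro y _ hy
      rw [show x * y⁻¹ * x⁻¹ = (x * y * x⁻¹)⁻¹ by group, hy]
  have hsurjβ := β.rangeRestrict_surjective
  let π : β.range →* GLT := β.rangeRestrict.liftOfSurjective hsurjβ ⟨ρ, by rwa [MonoidHom.ker_rangeRestrict]⟩
  have hπβ : ∀ x, π (β.rangeRestrict x) = ρ x := fun x =>
    MonoidHom.liftOfRightInverse_comp_apply _ _ _ _ x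
  have hWC : W ≤ ρ.ker := fun w hw => MonoidHom.mem_ker.2 ((hker w).2 fun d hd => hcentral d hd w hw)
  have hWβ : W ≤ β.ker := fun w hw => MonoidHom.mem_ker.2 (MulEquiv.ext fun v => by
    induction v using QuotientGroup.induction_on with | _ v => ?_
    rw [MulAut.one_apply]
    refine (hfixV w v).2 ?_
    rw [hD_eq, ← commutatorElement_def]
    exact Subgroup.commutator_mem_commutator hw v.2)
  obtain ⟨S, hS⟩ := exists_sylow_inter T hWT hWC fun t ht htC => hcent t ht ((hker t).1 htC)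
  have hidx : ¬ 2 ∣ (W.subgroupOf ρ.ker).index := hS ▸ S.not_dvd_index
  have hodd : Odd (Nat.card π.ker) := by
    have hrange : (β.rangeRestrict.comp ρ.ker.subtype).range = π.ker := by
      refine le_antisymm ?_ fun y hy => ?_
      · rintro _ ⟨x, rfl⟩
        exact MonoidHom.mem_ker.2 ((hπβ x).trans x.2)
      · obtain ⟨x, rfl⟩ := hsurjβ y
        exact ⟨⟨x, MonoidHom.mem_ker.2 ((hπβ x).symm.trans hy)⟩, rfl⟩
    rw [← hrange, ← Subgroup.index_ker]
    refine Nat.not_even_iff_odd.1 fun he => hidx ((even_iff_two_dvd.1 he).trans (Subgroup.index_dvd_of_le ?_))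
    intro w hw
    exact MonoidHom.mem_ker.2 (Subtype.ext (MonoidHom.mem_ker.1 (hWβ hw)))
  have hπsurj : Function.Surjective π := fun y => by
    obtain ⟨x, rfl⟩ := hρ y; exact ⟨_, hπβ x⟩
  have hbot := ker_eq_bot β.range.subtype hV Subtype.val_injective hbound π hπsurj hodd
    (T.mapSurjective hsurjβ) (by
      by_cases hs : s ∈ W
      · refine ⟨((⟨s, hs⟩ : W) : V), fun v hv => ?_⟩
        induction v using QuotientGroup.induction_on with | _ v => ?_
        rcases hfix v v.2 (fun t ht => (hfixV t v).1 (hv _ ⟨t, ht, rfl⟩)) with h | h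
        · exact Or.inl ((QuotientGroup.eq_one_iff v).2 h)
        · exact Or.inr (QuotientGroup.eq.2 (show ((⟨s, hs⟩ : W)⁻¹ * v : W) ∈ Dw from h)).symm
      · refine ⟨1, fun v hv => ?_⟩
        induction v using QuotientGroup.induction_on with | _ v => ?_
        rcases hfix v v.2 (fun t ht => (hfixV t v).1 (hv _ ⟨t, ht, rfl⟩)) with h | h
        · exact Or.inl ((QuotientGroup.eq_one_iff v).2 h)
        · exact absurd (by
            have := mul_mem v.2 (inv_mem (hDW h))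
            simpa using this) hs)
  have hact : ∀ x, ρ x = 1 → ∀ w ∈ W, x * w * x⁻¹ * w⁻¹ ∈ D := fun x hx w hw => by
    refine (hfixV x ⟨w, hw⟩).1 ?_
    have : β.rangeRestrict x = 1 := by
      rw [← Subgroup.mem_bot, ← hbot, MonoidHom.mem_ker, hπβ, hx]
    have e : β x = 1 := congrArg Subtype.val this
    rw [e, MulAut.one_apply]
  refine ⟨le_antisymm ?_ ?_, hact⟩
  · have h := sup_oddCore_of_centralized (W.subgroupOf ρ.ker)
      ((T.2.to_le hWT).of_equiv (Subgroup.subgroupOfEquivOfLe hWC).symm) hidx (fun σ hσ w hw => Subtype.ext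
        (commute_of_odd hexp ((hker σ).1 σ.2) (by rwa [Subgroup.orderOf_coe]) (hact σ σ.2) w hw))
    calc ρ.ker = ((⊤ : Subgroup ρ.ker)).map ρ.ker.subtype := by
          rw [← MonoidHom.range_eq_map, Subgroup.range_subtype]
      _ = (W.subgroupOf ρ.ker).map ρ.ker.subtype ⊔ (oddCore ρ.ker).map ρ.ker.subtype := by
          rw [← Subgroup.map_sup, h]
      _ ≤ W ⊔ oddCore N := sup_le_sup (Subgroup.map_comap_le _ _)
          (CfsgLib.Constrained.map_pPrimeCore_subgroup_le ρ.ker)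
  · refine sup_le hWC fun x hx => MonoidHom.mem_ker.2 ((hker x).2 fun d hd => ?_)
    have hdis : Disjoint (oddCore N) W := by
      rw [disjoint_iff]
      refine Subgroup.card_eq_one.1 ((((T.2.to_le hWT).to_le inf_le_right).card_eq_or_dvd).resolve_right
        fun h => CfsgLib.Constrained.pPrimeCore_not_dvd (p := 2) (G := N) (h.trans (Subgroup.card_dvd_of_le inf_le_left)))
    exact Subgroup.commute_of_normal_of_disjoint _ _ inferInstance inferInstance hdis x d hx (hDW hd)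

end CfsgLib.RudW34
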