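import Mathlib
import Cfsg.Agent.QuadMap.Squaring
import Cfsg.Agent.Frobenius57.ElementOrder

/-!
The structure of a 2-group of order at least `2^14` with fourth centre of order 16 in which the
centralizer `W` of the third centre has small Frattini subgroup lying in all subgroups of small index.
-/

set_option autoImplicit false

namespace CfsgLib.RudW34

open Subgroup

variable {P : Type*} [Group P] [Finite P]

theorem ucs_le_succ (n : ℕ) : Subgroup.upperCentralSeries P n ≤ Subgroup.upperCentralSeries P (n + 1) :=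
  Subgroup.upperCentralSeries_mono P n.le_succ

omit [Finite P] in
theorem comm_mem_ucs {n : ℕ} {x : P} (hx : x ∈ Subgroup.upperCentralSeries P (n + 1)) (y : P) :
    y * x * y⁻¹ * x⁻¹ ∈ Subgroup.upperCentralSeries P n := by
  have := inv_mem (Subgroup.mem_upperCentralSeries_succ_iff.1 hx y)
  simpa [commutatorElement_def, mul_assoc] using this

variable (hP : IsPGroup 2 P)
include hP

theorem exists_mem_succ {n : ℕ} {N : Subgroup P} [N.Normal] (hN : ¬ N ≤ Subgroup.upperCentralSeries P n) :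
    ∃ x ∈ N, x ∈ Subgroup.upperCentralSeries P (n + 1) ∧ x ∉ Subgroup.upperCentralSeries P n := by
  classical
  haveI := hP.isNilpotent
  obtain ⟨x₀, hx₀, hx₀n⟩ := SetLike.not_le_iff_exists.1 hN
  have hex : ∃ m, ∃ x ∈ N, x ∈ Subgroup.upperCentralSeries P m ∧ x ∉ Subgroup.upperCentralSeries P n := by
    obtain ⟨k, hk⟩ := Group.IsNilpotent.nilpotent P
    exact ⟨k, x₀, hx₀, hk ▸ mem_top _, hx₀n⟩
  obtain ⟨x, hx, hxm, hxn⟩ := Nat.find_spec hex
  obtain ⟨m, hm⟩ : ∃ m, Nat.find hex = m + 1 := Nat.exists_eq_succ_of_ne_zero fun h0 => by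
    rw [h0, Subgroup.upperCentralSeries_zero, mem_bot] at hxm
    exact hxn (hxm ▸ one_mem _)
  rw [hm] at hxm
  refine ⟨x, hx, Subgroup.mem_upperCentralSeries_succ_iff.2 fun y => ?_, hxn⟩
  by_contra hc
  have hcm := Subgroup.mem_upperCentralSeries_succ_iff.1 hxm y
  refine Nat.find_min hex (show m < Nat.find hex by omega) ⟨_, ?_, hcm, hc⟩
  rw [commutatorElement_def]
  simpa [mul_assoc] using mul_mem hx (‹N.Normal›.conj_mem _ (inv_mem hx) y)

theorem two_mul_card_le {H K : Subgroup P} (hlt : H < K) : 2 * Nat.card H ≤ Nat.card K := by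
  have h1 := Subgroup.card_dvd_of_le hlt.le
  have h2 : Nat.card H ≠ Nat.card K := fun e =>
    hlt.ne (Subgroup.eq_of_le_of_card_ge hlt.le e.ge)
  obtain ⟨j, hj⟩ := h1
  have hpos : 0 < Nat.card H := Nat.card_pos
  rcases j with _ | _ | j
  · simp only [mul_zero] at hj; have : 0 < Nat.card K := Nat.card_pos; omega
  · simp only [zero_add, mul_one] at hj; omega
  · rw [hj]; nlinarith

theorem normal_le_ucs {N : Subgroup P} [N.Normal] :
    ∀ n : ℕ, N ≤ Subgroup.upperCentralSeries P n ∨ 2 ^ n ≤ Nat.card (N ⊓ Subgroup.upperCentralSeries P n : Subgroup P) := by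
  intro n
  induction n with
  | zero => exact Or.inr (Nat.one_le_iff_ne_zero.2 Nat.card_pos.ne')
  | succ n ih =>
    by_cases h : N ≤ Subgroup.upperCentralSeries P n
    · exact Or.inl (h.trans (ucs_le_succ n))
    refine Or.inr ?_
    obtain ⟨x, hx, hx1, hxn⟩ := exists_mem_succ hP h
    have hlt : N ⊓ Subgroup.upperCentralSeries P n < N ⊓ Subgroup.upperCentralSeries P (n + 1) :=
      lt_of_le_of_ne (inf_le_inf_left _ (ucs_le_succ n)) fun e =>
        hxn (show x ∈ N ⊓ Subgroup.upperCentralSeries P n from e ▸ ⟨hx, hx1⟩).2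
    have := ih.resolve_left h
    have := two_mul_card_le hP hlt
    rw [pow_succ]; omega

/-- The data found in the 2-group. -/
structure Data (W D : Subgroup P) (c a b s : P) : Prop where
  cardD : Nat.card D = 8
  D_eq : D = ⁅W, W⁆
  hDW : D ≤ W
  normW : W.Normal
  central : ∀ d ∈ D, ∀ w ∈ W, w * d = d * w
  cent : ∀ t : P, (∀ d ∈ D, t * d = d * t) → t ∈ W
  sq : ∀ w ∈ W, w * w ∈ D
  expD : ∀ d ∈ D, d * d = 1
  small : ∀ U ≤ W, U.relIndex W ≤ 16 → D ≤ U
  index : W.index = 8
  bound : D.relIndex W ≤ 256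
  mem : c ∈ D ∧ a ∈ D ∧ b ∈ D
  c_ne : c ≠ 1
  a_ne : a ≠ 1 ∧ a ≠ c
  b_ne : b ≠ 1 ∧ b ≠ c ∧ b ≠ a ∧ b ≠ a * c
  fix_c : ∀ t : P, t * c * t⁻¹ = c
  fix_a : ∀ t : P, t * a * t⁻¹ = a ∨ t * a * t⁻¹ = a * c
  move_a : ∃ t : P, t * a * t⁻¹ = a * c ∧ t * b * t⁻¹ = b
  move_b : ∃ t : P, t * a * t⁻¹ = a ∧ t * b * t⁻¹ = b * a
  fix_W : ∀ v ∈ W, (∀ t : P, t * v * t⁻¹ * v⁻¹ ∈ D) → v ∈ D ∨ s⁻¹ * v ∈ D

theorem exists_data (ha : 2 ^ 14 ≤ Nat.card P) (hb : Nat.card (Subgroup.upperCentralSeries P 4) = 16)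
    (W : Subgroup P) (hW : W = centralizer (Subgroup.upperCentralSeries P 3 : Set P))
    (hc : Nat.card (frattini W) ≤ 8) (hd : ∀ U : Subgroup W, U.index ≤ 16 → frattini W ≤ U) :
    ∃ c a b s : P, Data W ((commutator W).map W.subtype) c a b s := by
  classical
  -- orders of the upper central series
  have hgrow : ∀ n, n < 4 → Subgroup.upperCentralSeries P n < Subgroup.upperCentralSeries P (n + 1) := by
    intro n hn
    refine lt_of_le_of_ne (ucs_le_succ n) fun e => ?_
    have hne : ¬ (⊤ : Subgroup P) ≤ Subgroup.upperCentralSeries P n := fun h => by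
      have h4 : Subgroup.upperCentralSeries P 4 = ⊤ :=
        top_le_iff.1 (h.trans (Subgroup.upperCentralSeries_mono P hn.le))
      rw [h4, card_top] at hb; omega
    obtain ⟨x, -, hx1, hxn⟩ := exists_mem_succ hP hne
    exact hxn (e ▸ hx1)
  have hcard : Nat.card (Subgroup.upperCentralSeries P 1) = 2 ∧ Nat.card (Subgroup.upperCentralSeries P 2) = 4 ∧
      Nat.card (Subgroup.upperCentralSeries P 3) = 8 := by
    have h0 : Nat.card (Subgroup.upperCentralSeries P 0) = 1 := by rw [Subgroup.upperCentralSeries_zero]; exact card_bot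
    have h1 := two_mul_card_le hP (hgrow 0 (by norm_num))
    have h2 := two_mul_card_le hP (hgrow 1 (by norm_num))
    have h3 := two_mul_card_le hP (hgrow 2 (by norm_num))
    have h4 := two_mul_card_le hP (hgrow 3 (by norm_num))
    simp only [Nat.reduceAdd] at h1 h2 h3 h4
    omega
  obtain ⟨hc1, hc2, hc3⟩ := hcard
  obtain ⟨c, hcZ, hc0⟩ := SetLike.exists_of_lt (hgrow 0 (by norm_num))
  obtain ⟨a, haZ, ha1⟩ := SetLike.exists_of_lt (hgrow 1 (by norm_num))
  obtain ⟨b, hbZ, hb2⟩ := SetLike.exists_of_lt (hgrow 2 (by norm_num))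
  obtain ⟨s, hsZ, hs3⟩ := SetLike.exists_of_lt (hgrow 3 (by norm_num))
  have hc_ne : c ≠ 1 := fun e => hc0 (e ▸ one_mem _)
  have hc2m : c ∈ (Subgroup.upperCentralSeries P) 2 := ucs_le_succ 1 hcZ
  have hZ1 : ∀ x ∈ (Subgroup.upperCentralSeries P) 1, x = 1 ∨ x = c := by
    intro x hx
    by_contra hcon; push Not at hcon
    have h3 : ({1, c, x} : Set P).ncard = 3 :=
      Set.ncard_eq_three.2 ⟨1, c, x, hc_ne.symm, Ne.symm hcon.1, Ne.symm hcon.2, rfl⟩
    have hsub : ({1, c, x} : Set P) ⊆ (Subgroup.upperCentralSeries P 1 : Set P) := by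
      intro y hy
      simp only [Set.mem_insert_iff, Set.mem_singleton_iff] at hy
      rcases hy with rfl | rfl | rfl
      exacts [one_mem _, hcZ, hx]
    have hle := Set.ncard_le_ncard hsub (Set.toFinite _)
    rw [h3, ← Nat.card_coe_set_eq] at hle
    exact absurd (hle.trans_eq hc1) (by norm_num)
  have hfixc : ∀ t : P, t * c * t⁻¹ = c := fun t => by
    have := comm_mem_ucs hcZ t
    rw [Subgroup.upperCentralSeries_zero, mem_bot] at this
    exact mul_inv_eq_one.1 this
  have hfixa : ∀ t : P, t * a * t⁻¹ = a ∨ t * a * t⁻¹ = a * c := fun t => by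
    rcases hZ1 _ (comm_mem_ucs haZ t) with e | e
    · exact Or.inl (mul_inv_eq_one.1 e)
    · refine Or.inr ?_
      rw [mul_inv_eq_iff_eq_mul.1 e]
      have := hfixc a
      rw [mul_inv_eq_iff_eq_mul] at this
      exact this.symm
  have hZ3 : (Subgroup.upperCentralSeries P) 3 = closure ({c, a, b} : Set P) := by
    have hle : closure ({c, a, b} : Set P) ≤ (Subgroup.upperCentralSeries P) 3 := by
      rw [closure_le]
      rintro x (rfl | rfl | rfl)
      exacts [ucs_le_succ 2 hc2m, ucs_le_succ 2 haZ, hbZ]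
    have hlt1 : (Subgroup.upperCentralSeries P) 1 < closure ({c, a} : Set P) := by
      refine lt_of_le_of_ne (fun x hx => ?_) fun e => ha1 (e ▸ subset_closure (by simp))
      rcases hZ1 x hx with rfl | rfl
      exacts [one_mem _, subset_closure (by simp)]
    have hlt2 : closure ({c, a} : Set P) < closure ({c, a, b} : Set P) := by
      refine lt_of_le_of_ne (closure_mono (by intro x hx; simp at hx ⊢; tauto)) fun e => hb2 ?_
      have hba : b ∈ closure ({c, a} : Set P) := e ▸ subset_closure (by simp)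
      exact (closure_le _).2 (by rintro x (rfl | rfl); exacts [hc2m, haZ]) hba
    have := two_mul_card_le hP hlt1
    have := two_mul_card_le hP hlt2
    exact (eq_of_le_of_card_ge hle (by omega)).symm
  -- the index of `W`
  haveI hWn : W.Normal := by rw [hW]; infer_instance
  let f : P ⧸ W → (Subgroup.upperCentralSeries P) 1 × (Subgroup.upperCentralSeries P) 2 := fun q =>
    (⟨_, comm_mem_ucs haZ q.out⟩, ⟨_, comm_mem_ucs hbZ q.out⟩)
  have hf : Function.Injective f := by
    intro q q' e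
    simp only [f, Prod.ext_iff, Subtype.ext_iff] at e
    rw [← QuotientGroup.out_eq' q, ← QuotientGroup.out_eq' q', QuotientGroup.eq]
    refine (SetLike.ext_iff.1 hW _).2 ?_
    rw [hZ3,
      centralizer_closure, mem_centralizer_iff]
    have key : ∀ {x : P}, q.out * x * q.out⁻¹ = q'.out * x * q'.out⁻¹ →
        x * (q.out⁻¹ * q'.out) = q.out⁻¹ * q'.out * x := by
      intro x hx
      have h' : q'.out * x = q.out * x * q.out⁻¹ * q'.out := by rw [hx]; group
      rw [show q.out⁻¹ * q'.out * x = q.out⁻¹ * (q'.out * x) by group, h']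
      group
    rintro x (rfl | rfl | rfl)
    · exact key (by rw [hfixc, hfixc])
    · exact key (mul_right_cancel e.1)
    · exact key (mul_right_cancel e.2)
  have hidx : W.index ≤ 8 := by
    have := Nat.card_le_card_of_injective f hf
    rw [Nat.card_prod, hc1, hc2] at this
    exact this
  -- the Frattini subgroup of `W`
  set Φ := (frattini W).map W.subtype with hΦ
  have hW2 : IsPGroup 2 W := hP.to_subgroup W
  haveI hΦn : Φ.Normal := ConjAct.normal_of_characteristic_of_normal
  have hΦcard : Nat.card Φ = Nat.card (frattini W) := Subgroup.card_subtype W _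
  have hΦW : Φ ≤ W := map_subtype_le _
  have hΦle : Φ ≤ (Subgroup.upperCentralSeries P) 3 := by
    rcases normal_le_ucs hP (N := Φ) 3 with h | h
    · exact h
    have h' : Φ ⊓ (Subgroup.upperCentralSeries P) 3 = Φ := eq_of_le_of_card_ge inf_le_left (by omega)
    exact inf_eq_left.1 h'
  have hWZ : ∀ z ∈ (Subgroup.upperCentralSeries P) 3, ∀ w ∈ W, z * w = w * z := fun z hz w hw => by
    rw [hW, mem_centralizer_iff] at hw
    exact hw z hz
  have hsqΦ : ∀ w ∈ W, w * w ∈ Φ ∧ ∀ v ∈ W, w * v * w⁻¹ * v⁻¹ ∈ Φ := fun w hw => by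
    refine ⟨⟨_, (Frobenius57.pow_mem_frattini hW2 ⟨w, hw⟩ 1).1, by simp [pow_two]⟩, fun v hv => ?_⟩
    exact ⟨_, (Frobenius57.pow_mem_frattini hW2 ⟨w, hw⟩ ⟨v, hv⟩).2, by simp⟩
  -- the derived subgroup of `W` is its Frattini subgroup
  have hDΦ : commutator W ≤ frattini W := by
    rw [_root_.commutator_def, Subgroup.commutator_le]
    intro x _ y _
    rw [commutatorElement_def]
    exact (Frobenius57.pow_mem_frattini hW2 x y).2
  have hsqD : ∀ w : W, w * w ∈ commutator W := by
    intro x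
    by_contra hx
    obtain ⟨U, ⟨hU, hxU⟩, hmax⟩ := Set.Finite.exists_maximal
      (Set.toFinite {U : Subgroup W | commutator W ≤ U ∧ x * x ∉ U}) ⟨_, le_rfl, hx⟩
    have hcm : ∀ g u : W, g * u * g⁻¹ * u⁻¹ ∈ U := fun g u => hU (by
      have := Subgroup.commutator_mem_commutator (H₁ := (⊤ : Subgroup W)) (H₂ := ⊤) (mem_top g) (mem_top u)
      rwa [commutatorElement_def, ← _root_.commutator_def] at this)
    haveI hUn : U.Normal := ⟨fun u hu g => by
      rw [show g * u * g⁻¹ = (g * u * g⁻¹ * u⁻¹) * u by group]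
      exact mul_mem (hcm g u) hu⟩
    have hcomm : ∀ u v : W ⧸ U, u * v = v * u := fun u v => by
      induction u using QuotientGroup.induction_on with | _ u => ?_
      induction v using QuotientGroup.induction_on with | _ v => ?_
      rw [← QuotientGroup.mk_mul, ← QuotientGroup.mk_mul, QuotientGroup.eq]
      rw [show (u * v)⁻¹ * (v * u) = v⁻¹ * u⁻¹ * v⁻¹⁻¹ * u⁻¹⁻¹ by group]
      exact hcm _ _
    let sqHom : W ⧸ U →* W ⧸ U :=
      { toFun := fun u => u * u
        map_one' := one_mul 1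
        map_mul' := fun u v => by rw [mul_assoc u v, ← mul_assoc v u, hcomm v u]; group }
    have hker : ∀ u : W ⧸ U, u * u = 1 → u = 1 ∨ u = QuotientGroup.mk (x * x) := by
      intro u hu
      induction u using QuotientGroup.induction_on with | _ u => ?_
      by_cases hu1 : u ∈ U
      · exact Or.inl ((QuotientGroup.eq_one_iff u).2 hu1)
      refine Or.inr ?_
      have hy : x * x ∈ U ⊔ zpowers u := by
        by_contra hy
        exact hu1 (hmax ⟨hU.trans le_sup_left, hy⟩ le_sup_left (mem_sup_right (mem_zpowers u)))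
      obtain ⟨v, hv, _, ⟨k, rfl⟩, e⟩ := mem_sup_of_normal_left.1 hy
      dsimp only at e
      have hk : ((u ^ k : W) : W ⧸ U) = ((x * x : W) : W ⧸ U) := by
        rw [← e, QuotientGroup.mk_mul, (QuotientGroup.eq_one_iff v).2 hv, one_mul]
      rcases Int.even_or_odd k with ⟨j, rfl⟩ | ⟨j, rfl⟩
      · exfalso
        rw [QuotientGroup.mk_zpow, ← two_mul, zpow_mul, zpow_two, hu, one_zpow] at hk
        exact hxU ((QuotientGroup.eq_one_iff _).1 hk.symm)
      · rw [← hk, QuotientGroup.mk_zpow, zpow_add, zpow_mul, zpow_two, hu, one_zpow, one_mul, zpow_one]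
    have h1 : Nat.card sqHom.ker ≤ 2 := by
      refine le_trans (Set.ncard_le_ncard (t := ({1, QuotientGroup.mk (x * x)} : Set (W ⧸ U)))
        (fun u hu => ?_) (Set.toFinite _)) ?_
      · rcases hker u hu with e | e <;> simp [e]
      · exact (Set.ncard_insert_le _ _).trans (by simp)
    have h2 : Nat.card sqHom.range ≤ 8 := by
      refine le_trans ?_ hc
      refine le_trans (Subgroup.card_le_of_le (K := (frattini W).map (QuotientGroup.mk' U)) ?_)
        (Nat.card_le_card_of_surjective _ ((QuotientGroup.mk' U).subgroupMap_surjective _))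
      rintro _ ⟨u, rfl⟩
      induction u using QuotientGroup.induction_on with | _ u => ?_
      exact ⟨u ^ 2, (Frobenius57.pow_mem_frattini hW2 u 1).1, by simp [sqHom, pow_two]⟩
    have h16 : U.index ≤ 16 := by
      rw [index_eq_card, ← sqHom.ker.card_mul_index, index_ker]
      exact Nat.mul_le_mul h1 h2
    exact hxU (hd U h16 (by simpa [pow_two] using (Frobenius57.pow_mem_frattini hW2 x 1).1))
  have hΦD : frattini W = commutator W := by
    refine le_antisymm (fun y hy => ?_) hDΦ
    by_contra hyD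
    obtain ⟨H, -, hH, hyH⟩ := QuadMap.exists_index_two_not_mem hsqD hyD
    haveI := Subgroup.normal_of_index_eq_two hH
    exact hyH (frattini_le_coatom ⟨fun e => by rw [e, index_top] at hH; omega, fun K hK => by
      have hdvd := index_dvd_of_le hK.le
      rw [hH] at hdvd
      rcases (Nat.dvd_prime Nat.prime_two).1 hdvd with e | e
      · exact index_eq_one.1 e
      · exact absurd (eq_of_le_of_card_ge hK.le (by
          have h1 := card_mul_index H; have h2 := card_mul_index K
          rw [hH] at h1; rw [e] at h2; omega)) hK.ne⟩ hy)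
  have hD : (commutator W).map W.subtype = Φ := by rw [hΦ, hΦD]
  rw [hD]
  have hD_eq : Φ = ⁅W, W⁆ := by rw [← hD, map_subtype_commutator]
  -- the fixed points on `W / Φ`
  obtain ⟨k, hk3, hΦk⟩ : ∃ k ≤ 3, Φ = (Subgroup.upperCentralSeries P) k := by
    obtain ⟨k, hk⟩ := IsPGroup.iff_card.1 (hP.to_subgroup Φ)
    have hk3 : k ≤ 3 := (Nat.pow_le_pow_iff_right (by norm_num : 1 < 2)).1
      (by rw [← hk, hΦcard]; norm_num; omega)
    have hzk : Nat.card ((Subgroup.upperCentralSeries P) k) = 2 ^ k := by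
      interval_cases k
      · rw [Subgroup.upperCentralSeries_zero, card_bot]; norm_num
      · exact hc1
      · exact hc2
      · exact hc3
    refine ⟨k, hk3, ?_⟩
    rcases normal_le_ucs hP (N := Φ) k with h | h
    · exact eq_of_le_of_card_ge h (by omega)
    · have h' : Φ ⊓ (Subgroup.upperCentralSeries P) k = Φ := eq_of_le_of_card_ge inf_le_left (by rw [hk]; exact h)
      exact eq_of_le_of_card_ge (inf_eq_left.1 h') (by omega)
  obtain ⟨r, hrk, hr⟩ := SetLike.exists_of_lt (hgrow k (by omega))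
  have hZk : ∀ x ∈ (Subgroup.upperCentralSeries P) (k + 1), x ∈ Φ ∨ r⁻¹ * x ∈ Φ := by
    intro x hx
    by_cases hxk : x ∈ (Subgroup.upperCentralSeries P) k
    · exact Or.inl (hΦk ▸ hxk)
    refine Or.inr (hΦk ▸ ?_)
    have hrel : ((Subgroup.upperCentralSeries P) k).relIndex ((Subgroup.upperCentralSeries P) (k + 1)) = 2 := by
      have h1 : Nat.card ((Subgroup.upperCentralSeries P) k) * ((Subgroup.upperCentralSeries P) k).relIndex ((Subgroup.upperCentralSeries P) (k + 1)) = Nat.card ((Subgroup.upperCentralSeries P) (k + 1)) := by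
        rw [← relIndex_bot_left, ← relIndex_bot_left,
          relIndex_mul_relIndex _ _ _ bot_le (ucs_le_succ k)]
      have h0 : Nat.card ((Subgroup.upperCentralSeries P) 0) = 1 := by rw [Subgroup.upperCentralSeries_zero]; exact card_bot
      interval_cases k <;> simp only [hc1, hc2, hc3, h0, hb] at h1 <;> omega
    have := Subgroup.mul_mem_iff_of_index_two (H := ((Subgroup.upperCentralSeries P) k).subgroupOf ((Subgroup.upperCentralSeries P) (k + 1))) hrel
      (a := ⟨r⁻¹, inv_mem hrk⟩) (b := ⟨x, hx⟩)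
    simp only [mem_subgroupOf, coe_mul, inv_mem_iff] at this
    exact this.2 (iff_of_false hr hxk)
  -- order of `W / Φ`
  have hbound : Φ.relIndex W ≤ 2 ^ W.index := by
    by_cases hrW : r ∈ W
    swap
    · have htriv : W ≤ Φ := fun w hw => by
        by_contra hwΦ
        obtain ⟨x, hxW, hx1, hxk⟩ := exists_mem_succ hP (N := W) (n := k) (fun h => hwΦ (hΦk ▸ h hw))
        rcases hZk x hx1 with h | h
        · exact hxk (hΦk ▸ h)
        · exact hrW (by simpa using mul_mem hxW (inv_mem (hΦW h)))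
      rw [relIndex_eq_one.2 htriv]; exact Nat.one_le_two_pow
    obtain ⟨H, hΦH, hH, hrH⟩ := QuadMap.exists_index_two_not_mem (K := Φ.subgroupOf W)
      (fun g => (hsqΦ g g.2).1) (x := ⟨r, hrW⟩) (fun h => hr (hΦk ▸ h))
    haveI := Subgroup.normal_of_index_eq_two hH
    let cj : P → W → W := fun p w =>
      ⟨p⁻¹ * w * p, by simpa using hWn.conj_mem _ w.2 p⁻¹⟩
    let g : W ⧸ Φ.subgroupOf W → (P ⧸ W → Bool) := fun v q => decide (cj q.out v.out ∈ H)
    have hg : Function.Injective g := by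
      intro v v' e
      by_contra hne
      set x : W := v.out⁻¹ * v'.out
      have hx : ∀ p : P, cj p x ∈ H := by
        intro p
        have hq : ∀ q : P ⧸ W, cj q.out x ∈ H := fun q => by
          have hmul : cj q.out x = (cj q.out v.out)⁻¹ * cj q.out v'.out :=
            Subtype.ext (by simp [cj, x]; group)
          rw [hmul, Subgroup.mul_mem_iff_of_index_two hH, inv_mem_iff]
          exact decide_eq_decide.1 (congrFun e q)
        obtain ⟨w, hw⟩ := QuotientGroup.mk_out_eq_mul W p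
        have := hq (QuotientGroup.mk p)
        have e' : cj p x = w * cj (QuotientGroup.mk p : P ⧸ W).out x * w⁻¹ :=
          Subtype.ext (by simp only [cj, coe_mul, coe_inv, hw]; group)
        rw [e']
        exact ‹H.Normal›.conj_mem _ this w
      let K : Subgroup P := ⨅ p : P, (H.map W.subtype).comap (MulAut.conj p⁻¹).toMonoidHom
      haveI : K.Normal := ⟨fun y hy g => by
        simp only [K, mem_iInf, mem_comap, MulEquiv.coe_toMonoidHom, MulAut.conj_apply, inv_inv] at hy ⊢
        intro p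
        have := hy (g⁻¹ * p)
        simpa [mul_assoc] using this⟩
      have hKΦ : K ≤ Φ := by
        by_contra hcon
        rw [hΦk] at hcon
        obtain ⟨y, hy, hy1, hyk⟩ := exists_mem_succ hP hcon
        simp only [K, mem_iInf, mem_comap, MulEquiv.coe_toMonoidHom, MulAut.conj_apply] at hy
        obtain ⟨y', hy', ey⟩ := hy 1
        simp at ey
        subst ey
        rcases hZk _ hy1 with h | h
        · exact hyk (hΦk ▸ h)
        · refine hrH ?_
          have hm : (⟨r, hrW⟩ : W) = y' * ⟨_, hΦW h⟩⁻¹ := Subtype.ext (by simp)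
          rw [hm]
          exact mul_mem hy' (inv_mem (hΦH h))
      have hxK : (x : P) ∈ K := by
        simp only [K, mem_iInf, mem_comap, MulEquiv.coe_toMonoidHom, MulAut.conj_apply, inv_inv]
        exact fun p => ⟨cj p x, hx p, rfl⟩
      apply hne
      rw [← QuotientGroup.out_eq' v, ← QuotientGroup.out_eq' v', QuotientGroup.eq]
      exact hKΦ hxK
    have hle := Nat.card_le_card_of_injective g hg
    rw [Nat.card_fun] at hle
    simpa [relIndex, index_eq_card] using hle
  have hall : W.index = 8 ∧ Nat.card Φ = 8 := by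
    have hP' : Nat.card Φ * Φ.relIndex W * W.index = Nat.card P := by
      rw [← relIndex_bot_left, relIndex_mul_relIndex _ _ _ bot_le hΦW, relIndex_bot_left, card_mul_index]
    have hb2 : Φ.relIndex W ≤ 2 ^ 8 := hbound.trans (Nat.pow_le_pow_right (by norm_num) hidx)
    have hΦ8 : Nat.card Φ ≤ 8 := hΦcard ▸ hc
    constructor
    · by_contra hne
      have : Nat.card Φ * Φ.relIndex W * W.index ≤ 8 * 2 ^ 8 * 7 :=
        Nat.mul_le_mul (Nat.mul_le_mul hΦ8 hb2) (by omega)
      omega
    · by_contra hne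
      have : Nat.card Φ * Φ.relIndex W * W.index ≤ 7 * 2 ^ 8 * 8 :=
        Nat.mul_le_mul (Nat.mul_le_mul (by omega) hb2) hidx
      omega
  have hΦ3 : Φ = (Subgroup.upperCentralSeries P) 3 := eq_of_le_of_card_ge hΦle (by omega)
  have hcentral : ∀ d ∈ Φ, ∀ w ∈ W, w * d = d * w := fun d hd w hw => (hWZ d (hΦle hd) w hw).symm
  have hbij : Function.Bijective f := by
    rw [Nat.bijective_iff_injective_and_card]
    refine ⟨hf, ?_⟩
    rw [← index_eq_card, hall.1, Nat.card_prod, hc1, hc2]
  have hcommD : ∀ y ∈ Φ, ∀ z ∈ Φ, y * z = z * y := fun y hy z hz => hcentral z hz y (hΦW hy)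
  have hmemca : c ∈ Φ ∧ a ∈ Φ ∧ b ∈ Φ := by
    rw [hΦ3]; exact ⟨ucs_le_succ 2 hc2m, ucs_le_succ 2 haZ, hbZ⟩
  refine ⟨c, a, b, s, ⟨hall.2, hD_eq, hΦW, hWn, hcentral, fun t ht => ?_, fun w hw => (hsqΦ w hw).1,
    ?_, fun U hU hU16 => ?_, hall.1,
    hbound.trans (by rw [hall.1]; norm_num), hmemca, hc_ne, ⟨fun e => ha1 (e ▸ one_mem _), fun e => ha1 (e ▸ hcZ)⟩,
    ⟨fun e => hb2 (e ▸ one_mem _), fun e => hb2 (e ▸ hc2m), fun e => hb2 (e ▸ haZ),
      fun e => hb2 (e ▸ mul_mem haZ hc2m)⟩, hfixc, hfixa, ?_, ?_, fun v hv hfix => ?_⟩⟩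
  · rw [hW, mem_centralizer_iff]
    exact fun z hz => (ht z (hΦ3 ▸ hz)).symm
  · intro d hd
    rw [hD_eq, Subgroup.commutator_def] at hd
    have hd' : d ∈ Φ ∧ d * d = 1 := by
      refine closure_induction (p := fun x _ => x ∈ Φ ∧ x * x = 1) ?_ ⟨one_mem _, one_mul 1⟩ ?_ ?_ hd
      · rintro _ ⟨x, hx, y, hy, rfl⟩
        rw [commutatorElement_def]
        refine ⟨(hsqΦ x hx).2 y hy, ?_⟩
        have hy2 : x * (y * y) * x⁻¹ = y * y := by
          rw [hcentral _ (hsqΦ y hy).1 x hx]; group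
        have hz := hcentral _ ((hsqΦ x hx).2 y hy) y hy
        calc (x * y * x⁻¹ * y⁻¹) * (x * y * x⁻¹ * y⁻¹)
            = (x * y * x⁻¹ * y⁻¹) * (y * (x * y * x⁻¹ * y⁻¹)) * y⁻¹ := by rw [hz]; group
          _ = x * (y * y) * x⁻¹ * (y * y)⁻¹ := by group
          _ = 1 := by rw [hy2]; group
      · rintro x y - - ⟨hx, hx2⟩ ⟨hy, hy2⟩
        refine ⟨mul_mem hx hy, ?_⟩
        calc x * y * (x * y) = x * (y * x) * y := by group
          _ = (x * x) * (y * y) := by rw [← hcommD x hx y hy]; group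
          _ = 1 := by rw [hx2, hy2, one_mul]
      · rintro x - ⟨hx, hx2⟩
        exact ⟨inv_mem hx, by rw [← mul_inv_rev, hx2, inv_one]⟩
    exact hd'.2
  · intro y hy
    obtain ⟨y', hy', rfl⟩ := hy
    exact mem_subgroupOf.1 (hd (U.subgroupOf W) hU16 hy')
  · obtain ⟨q, hq⟩ := hbij.2 (⟨c, hcZ⟩, 1)
    simp only [f, Prod.ext_iff, Subtype.ext_iff, OneMemClass.coe_one] at hq
    refine ⟨q.out, ?_, mul_inv_eq_one.1 hq.2⟩
    rw [mul_inv_eq_iff_eq_mul.1 hq.1]
    exact hcommD _ hmemca.1 _ hmemca.2.1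
  · obtain ⟨q, hq⟩ := hbij.2 (1, ⟨a, haZ⟩)
    simp only [f, Prod.ext_iff, Subtype.ext_iff, OneMemClass.coe_one] at hq
    refine ⟨q.out, mul_inv_eq_one.1 hq.1, ?_⟩
    rw [mul_inv_eq_iff_eq_mul.1 hq.2]
    exact hcommD _ hmemca.2.1 _ hmemca.2.2
  · have hv4 : v ∈ (Subgroup.upperCentralSeries P) 4 := Subgroup.mem_upperCentralSeries_succ_iff.2 fun y => by
      have := inv_mem (hfix y)
      rw [hΦ3] at this
      simpa [commutatorElement_def, mul_assoc] using this
    by_cases hv3 : v ∈ (Subgroup.upperCentralSeries P) 3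
    · exact Or.inl (hΦ3 ▸ hv3)
    refine Or.inr (hΦ3 ▸ ?_)
    have hrel : ((Subgroup.upperCentralSeries P) 3).relIndex ((Subgroup.upperCentralSeries P) 4) = 2 := by
      have h1 : Nat.card ((Subgroup.upperCentralSeries P) 3) * ((Subgroup.upperCentralSeries P) 3).relIndex ((Subgroup.upperCentralSeries P) 4) = Nat.card ((Subgroup.upperCentralSeries P) 4) := by
        rw [← relIndex_bot_left, ← relIndex_bot_left,
          relIndex_mul_relIndex _ _ _ bot_le (ucs_le_succ 3)]
      rw [hc3, hb] at h1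
      omega
    have := Subgroup.mul_mem_iff_of_index_two (H := ((Subgroup.upperCentralSeries P) 3).subgroupOf ((Subgroup.upperCentralSeries P) 4)) hrel
      (a := ⟨s⁻¹, inv_mem hsZ⟩) (b := ⟨v, hv4⟩)
    simp only [mem_subgroupOf, coe_mul, inv_mem_iff] at this
    exact this.2 (iff_of_false hs3 hv3)

end CfsgLib.RudW34
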