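import Cfsg.Agent.RudW34.Vanish
import Cfsg.Agent.RudW34.Structure
import Cfsg.Agent.RudW34.Coord
import Cfsg.Agent.RudW34.Kernel

/-!
For a group without subgroup of index two whose Sylow 2-subgroup has the Rudvalis type subgroup `W`:
`N(W)` induces `GL(3, 2)` on `W'` and controls `N(W')` up to the odd core.
-/

set_option autoImplicit false

namespace CfsgLib.RudW34

open Cfsg

variable {G : Type*} [Group G] [Finite G]

/-- Without subgroups of index two no sign of `N(W)` killing `W` is nontrivial on `T`. -/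
theorem no_sign (T : Sylow 2 G) (h2 : ∀ H : Subgroup G, H.index ≠ 2) {W D : Subgroup G}
    (h : Setting (T : Subgroup G) W D) (ψ : Subgroup.normalizer (W : Set G) →* ℤˣ)
    (hTN : (T : Subgroup G) ≤ Subgroup.normalizer (W : Set G))
    (hW : ∀ w (hw : w ∈ W), ψ ⟨w, hTN (h.hWT hw)⟩ = 1)
    {t : G} (ht : t ∈ (T : Subgroup G)) : ψ ⟨t, hTN ht⟩ = 1 := by
  classical
  haveI := Fintype.ofFinite (G ⧸ (T : Subgroup G))
  rcases Int.units_eq_one_or (ψ ⟨t, hTN ht⟩) with e | e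
  · exact e
  exfalso
  let χ : (T : Subgroup G) →* ℤˣ := ψ.comp (Subgroup.inclusion hTN)
  have hx := h.tauHom_eq χ Int.units_mul_self (fun w hw => hW w hw) (T' := T) rfl ψ (fun x hx hn => rfl) ht
  refine h2 (tauHom χ).ker ?_
  rw [Subgroup.index_ker]
  have hm : (-1 : ℤˣ) ∈ (tauHom χ).range := ⟨t, hx.trans e⟩
  have htop : (tauHom χ).range = ⊤ := by
    rw [eq_top_iff]
    intro u _
    rcases Int.units_eq_one_or u with rfl | rfl
    exacts [one_mem _, hm]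
  rw [htop, Subgroup.card_top, Nat.card_eq_fintype_card]
  decide

/-- The structure of `N(W)` and `N(W')`. -/
theorem main (T : Sylow 2 G) (h2 : ∀ H : Subgroup G, H.index ≠ 2) {W D : Subgroup G} {c a b s : G}
    (h : Setting (T : Subgroup G) W D) (hb : Basis8 D c a b) (hD_eq : D = ⁅W, W⁆)
    (hbound : D.relIndex W ≤ 256) (fix_c : ∀ t ∈ (T : Subgroup G), t * c * t⁻¹ = c)
    (move_a : ∃ t ∈ (T : Subgroup G), t * a * t⁻¹ = a * c ∧ t * b * t⁻¹ = b)
    (move_b : ∃ t ∈ (T : Subgroup G), t * a * t⁻¹ = a ∧ t * b * t⁻¹ = b * a)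
    (fix_W : ∀ v ∈ W, (∀ t ∈ (T : Subgroup G), t * v * t⁻¹ * v⁻¹ ∈ D) → v ∈ D ∨ s⁻¹ * v ∈ D) :
    ((Subgroup.normalizer (W : Set G)).subgroupOf (Subgroup.normalizer (D : Set G)) ⊔
        oddCore (Subgroup.normalizer (D : Set G)) = ⊤) ∧
      ∃ (_ : (W.subgroupOf (Subgroup.normalizer (W : Set G)) ⊔
          oddCore (Subgroup.normalizer (W : Set G))).Normal),
        Nonempty (↥(Subgroup.normalizer (W : Set G)) ⧸ (W.subgroupOf (Subgroup.normalizer (W : Set G)) ⊔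
          oddCore (Subgroup.normalizer (W : Set G))) ≃* GLT) := by
  classical
  haveI : Fact (Nat.Prime 2) := ⟨Nat.prime_two⟩
  have hconjD : ∀ x ∈ Subgroup.normalizer (W : Set G), ∀ d ∈ D, x * d * x⁻¹ ∈ D := by
    intro x hx d hd
    have hmap : W.map (MulAut.conj x).toMonoidHom ≤ W := by
      rintro _ ⟨w, hw, rfl⟩
      simpa using (Subgroup.mem_normalizer_iff.1 hx w).1 hw
    have : D.map (MulAut.conj x).toMonoidHom ≤ D := by
      rw [hD_eq, Subgroup.map_commutator]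
      exact Subgroup.commutator_mono hmap hmap
    simpa using this ⟨d, hd, rfl⟩
  have hNM : Subgroup.normalizer (W : Set G) ≤ Subgroup.normalizer (D : Set G) := fun x hx =>
    Subgroup.mem_normalizer_fintype (hconjD x hx)
  have hTN : (T : Subgroup G) ≤ Subgroup.normalizer (W : Set G) := fun t ht =>
    Subgroup.mem_normalizer_fintype (h.conjW t ht)
  set N := Subgroup.normalizer (W : Set G) with hN
  set M := Subgroup.normalizer (D : Set G) with hM
  set ρ : N →* GLT := hb.rho.comp (Subgroup.inclusion hNM) with hρdef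
  have hker : ∀ x : N, ρ x = 1 ↔ ∀ d ∈ D, (x : G) * d = d * x := fun x => hb.rho_eq_one_iff _
  obtain ⟨e0, e1, e2⟩ := hb.vec_single
  have hva : Basis8.vec c a b ![1, 1, 0] = a * c := by
    have e : Basis8.vec c a b ![1, 1, 0] = c * a := by simp [Basis8.vec, ZMod.val_one]
    exact e.trans (hb.comm _ hb.mem.1 _ hb.mem.2.1)
  have hvb : Basis8.vec c a b ![0, 1, 1] = b * a := by
    have e : Basis8.vec c a b ![0, 1, 1] = a * b := by simp [Basis8.vec, ZMod.val_one]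
    exact e.trans (hb.comm _ hb.mem.2.1 _ hb.mem.2.2)
  obtain ⟨ta, hta, ha1, ha2⟩ := move_a
  obtain ⟨tb, htb, hb1, hb2⟩ := move_b
  have hρa : (ρ ⟨ta, hTN hta⟩).1 = (tv 0 1 (by decide)).1 := by
    refine (hb.rho_eq _ ((fix_c ta hta).trans e0.symm) (ha1.trans hva.symm) (ha2.trans e2.symm)).trans ?_
    rw [tv_val]
    ext i j
    fin_cases i <;> fin_cases j <;> simp
  have hρb : (ρ ⟨tb, hTN htb⟩).1 = (tv 1 2 (by decide)).1 := by
    refine (hb.rho_eq _ ((fix_c tb htb).trans e0.symm) (hb1.trans e1.symm) (hb2.trans hvb.symm)).trans ?_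
    rw [tv_val]
    ext i j
    fin_cases i <;> fin_cases j <;> simp
  have hkill : ∀ w (hw : w ∈ W), ρ ⟨w, hTN (h.hWT hw)⟩ = 1 := fun w hw =>
    (hker _).2 fun d hd => h.central d hd w hw
  -- the point and the line are moved
  have hg : ∃ g ∈ ρ.range, g.1 1 0 ≠ 0 ∨ g.1 2 0 ≠ 0 := by
    by_contra hcon
    have hz : ∀ x : N, (ρ x).1 1 0 = 0 ∧ (ρ x).1 2 0 = 0 := fun x =>
      ⟨by_contra fun e => hcon ⟨_, ⟨x, rfl⟩, Or.inl e⟩, by_contra fun e => hcon ⟨_, ⟨x, rfl⟩, Or.inr e⟩⟩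
    obtain ⟨ψ, hψ1, hψ2⟩ := exists_sign ρ Fin.succ (fun x y => by
      ext i j
      fin_cases i <;> fin_cases j <;>
        simp [block, Matrix.mul_apply, Fin.sum_univ_three, Fin.sum_univ_two, (hz x).1, (hz x).2])
      (Fin.succ_injective 2)
    have h1 := hψ2 ⟨tb, hTN htb⟩ (by rw [hρb, tv_val]; decide)
    rw [no_sign T h2 h ψ hTN (fun w hw => hψ1 _ (hkill w hw)) htb] at h1
    exact absurd h1 (by decide)
  have hh : ∃ g ∈ ρ.range, g.1 2 0 ≠ 0 ∨ g.1 2 1 ≠ 0 := by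
    by_contra hcon
    have hz : ∀ x : N, (ρ x).1 2 0 = 0 ∧ (ρ x).1 2 1 = 0 := fun x =>
      ⟨by_contra fun e => hcon ⟨_, ⟨x, rfl⟩, Or.inl e⟩, by_contra fun e => hcon ⟨_, ⟨x, rfl⟩, Or.inr e⟩⟩
    obtain ⟨ψ, hψ1, hψ2⟩ := exists_sign ρ Fin.castSucc (fun x y => by
      ext i j
      fin_cases i <;> fin_cases j <;>
        simp [block, Matrix.mul_apply, Fin.sum_univ_three, Fin.sum_univ_two, (hz y).1, (hz y).2])
      (Fin.castSucc_injective 2)
    have h1 := hψ2 ⟨ta, hTN hta⟩ (by rw [hρa, tv_val]; decide)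
    rw [no_sign T h2 h ψ hTN (fun w hw => hψ1 _ (hkill w hw)) hta] at h1
    exact absurd h1 (by decide)
  have hρ : Function.Surjective ρ := MonoidHom.range_eq_top.1
    (eq_top_of_moves _ ⟨_, Units.ext hρa⟩ ⟨_, Units.ext hρb⟩ hg hh)
  -- the kernel
  haveI : (W.subgroupOf N).Normal := Subgroup.normal_in_normalizer
  haveI : (D.subgroupOf N).Normal := ⟨fun d hd x => hconjD x x.2 d hd⟩
  have hD_eq' : D.subgroupOf N = ⁅W.subgroupOf N, W.subgroupOf N⁆ := by
    apply Subgroup.map_injective N.subtype_injective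
    rw [Subgroup.map_commutator, Subgroup.map_subgroupOf_eq_of_le (h.hDW.trans Subgroup.le_normalizer),
      Subgroup.map_subgroupOf_eq_of_le (show W ≤ N from Subgroup.le_normalizer)]
    exact hD_eq
  have hb' : (D.subgroupOf N).relIndex (W.subgroupOf N) ≤ 256 := by
    rw [Subgroup.subgroupOf, Subgroup.relIndex_comap,
      Subgroup.map_subgroupOf_eq_of_le (show W ≤ N from Subgroup.le_normalizer)]
    exact hbound
  have hfixN : ∃ s' : N, ∀ v ∈ W.subgroupOf N,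
      (∀ t ∈ ((T.subtype hTN : Sylow 2 N) : Subgroup N), t * v * t⁻¹ * v⁻¹ ∈ D.subgroupOf N) →
        v ∈ D.subgroupOf N ∨ s'⁻¹ * v ∈ D.subgroupOf N := by
    by_cases hs : s ∈ W
    · exact ⟨⟨s, Subgroup.le_normalizer hs⟩, fun v hv hf => fix_W v hv fun t ht => hf ⟨t, hTN ht⟩ ht⟩
    · refine ⟨1, fun v hv hf => Or.inl ?_⟩
      rcases fix_W v hv fun t ht => hf ⟨t, hTN ht⟩ ht with e | e
      · exact e
      · exact absurd (by
          have := mul_mem (Subgroup.mem_subgroupOf.1 hv) (inv_mem (h.hDW e))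
          simpa using this) hs
  obtain ⟨s', hs'⟩ := hfixN
  obtain ⟨hkerEq, hact⟩ := kernel (T.subtype hTN) (W.subgroupOf N) (D.subgroupOf N)
    (fun x hx => h.hWT hx) (fun x hx => h.hDW hx) hD_eq'
    (fun d hd w hw => Subtype.ext (h.central d hd w hw)) (fun w hw => h.sq w hw)
    (fun d hd => Subtype.ext (h.expD d hd))
    (fun t ht hall => h.cent t ht fun d hd =>
      congrArg Subtype.val (hall ⟨d, Subgroup.le_normalizer (h.hDW hd)⟩ hd))
    hb' hs' ρ hρ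
    (fun x => (hker x).trans ⟨fun hx d hd => Subtype.ext (hx d hd),
      fun hx d hd => congrArg Subtype.val (hx ⟨d, Subgroup.le_normalizer (h.hDW hd)⟩ hd)⟩)
  refine ⟨?_, ?_, ?_⟩
  swap
  · exact hkerEq ▸ ρ.normal_ker
  swap
  · haveI : (W.subgroupOf N ⊔ oddCore N).Normal := hkerEq ▸ ρ.normal_ker
    exact ⟨(QuotientGroup.quotientMulEquivOfEq hkerEq.symm).trans
      (QuotientGroup.quotientKerEquivOfSurjective ρ hρ)⟩
  -- the normalizer of `D`
  have hTM : (T : Subgroup G) ≤ M := hTN.trans hNM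
  set C₁ := hb.rho.ker with hC₁
  have hWM : W ≤ M := h.hWT.trans hTM
  have hWC : W.subgroupOf M ≤ C₁ := fun w hw => MonoidHom.mem_ker.2 ((hb.rho_eq_one_iff w).2
    fun d hd => h.central d hd w hw)
  obtain ⟨S, hS⟩ := exists_sylow_inter (T.subtype hTM) (W := W.subgroupOf M) (C := C₁)
    (fun x hx => h.hWT hx) hWC (fun t ht htC => h.cent t ht ((hb.rho_eq_one_iff t).1 htC))
  have hnormN : ∀ x : M, (∀ w ∈ W.subgroupOf M, x * w * x⁻¹ ∈ W.subgroupOf M) → (x : G) ∈ N :=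
    fun x hx => Subgroup.mem_normalizer_fintype fun w hw => hx ⟨w, hWM hw⟩ hw
  have hC : C₁ ≤ W.subgroupOf M ⊔ oddCore M := by
    have hburn := sup_oddCore_of_burnside S (D := (D.subgroupOf M).subgroupOf C₁)
      (by rw [hS]; exact fun x hx => h.hDW hx)
      (fun d hd x => Subtype.ext (Subtype.ext ((hb.rho_eq_one_iff x.1).1 x.2 d hd)))
      (fun x hx w hw => by
        rw [hS] at hw hx
        have hxN : ((x : M) : G) ∈ N := hnormN x fun w' hw' =>
          (Subgroup.mem_normalizer_iff.1 hx ⟨w', hWC hw'⟩).1 hw'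
        exact hact ⟨_, hxN⟩ ((hker _).2 ((hb.rho_eq_one_iff x.1).1 x.2))
          ⟨((w : M) : G), Subgroup.le_normalizer hw⟩ hw)
    calc C₁ = ((⊤ : Subgroup C₁)).map C₁.subtype := by
          rw [← MonoidHom.range_eq_map, Subgroup.range_subtype]
      _ = ((S : Subgroup C₁)).map C₁.subtype ⊔ (oddCore C₁).map C₁.subtype := by
          rw [← Subgroup.map_sup, hburn]
      _ ≤ W.subgroupOf M ⊔ oddCore M := sup_le_sup (by rw [hS]; exact Subgroup.map_comap_le _ _)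
          (CfsgLib.Constrained.map_pPrimeCore_subgroup_le C₁)
  have hfr := Sylow.normalizer_sup_eq_top S
  rw [hS, Subgroup.map_subgroupOf_eq_of_le hWC] at hfr
  rw [eq_top_iff, ← hfr]
  refine sup_le (fun x hx => Subgroup.mem_sup_left ?_) (hC.trans (sup_le_sup_right ?_ _))
  · exact hnormN x fun w hw => (Subgroup.mem_normalizer_iff.1 hx w).1 hw
  · exact fun w hw => Subgroup.le_normalizer hw

/-- The hypotheses in the form of the statement. -/
theorem main_of_data (T : Sylow 2 G) (ha : 2 ^ 14 ≤ Nat.card ↥(T : Subgroup G))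
    (hb : Nat.card ↥(Subgroup.upperCentralSeries ↥(T : Subgroup G) 4) = 16)
    (W : Subgroup ↥(T : Subgroup G))
    (hW : W = Subgroup.centralizer
      ((Subgroup.upperCentralSeries ↥(T : Subgroup G) 3 : Subgroup ↥(T : Subgroup G)) : Set ↥(T : Subgroup G)))
    (hc : Nat.card ↥(frattini ↥W) ≤ 8) (hd : ∀ U : Subgroup ↥W, U.index ≤ 16 → frattini ↥W ≤ U)
    (h2 : ∀ H : Subgroup G, H.index ≠ 2) (WG D N M : Subgroup G)
    (hWG : WG = W.map (T : Subgroup G).subtype)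
    (hDW : D = ((commutator ↥W).map W.subtype).map (T : Subgroup G).subtype)
    (hN : N = Subgroup.normalizer (WG : Set G)) (hM : M = Subgroup.normalizer (D : Set G)) :
    (N.subgroupOf M ⊔ oddCore ↥M = ⊤) ∧
      ∃ (_ : (WG.subgroupOf N ⊔ oddCore ↥N).Normal),
        Nonempty (↥N ⧸ (WG.subgroupOf N ⊔ oddCore ↥N) ≃* GLT) := by
  subst hN hM
  haveI : Fact (Nat.Prime 2) := ⟨Nat.prime_two⟩
  obtain ⟨c, a, b, s, hD⟩ := exists_data T.2 ha hb W hW hc hd
  set D₀ := (commutator ↥W).map W.subtype with hD₀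
  set ι := (T : Subgroup G).subtype with hι
  have hinj : Function.Injective ι := (T : Subgroup G).subtype_injective
  have hmemW : ∀ x : (T : Subgroup G), (x : G) ∈ WG ↔ x ∈ W := fun x => by
    rw [hWG]; exact Subgroup.mem_map_iff_mem hinj
  have hmemD : ∀ x : (T : Subgroup G), (x : G) ∈ D ↔ x ∈ D₀ := fun x => by
    rw [hDW]; exact Subgroup.mem_map_iff_mem hinj
  have hWT : WG ≤ (T : Subgroup G) := hWG ▸ Subgroup.map_subtype_le W
  have hDT : D ≤ (T : Subgroup G) := hDW ▸ Subgroup.map_subtype_le D₀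
  have hDle : D ≤ WG := by rw [hDW, hWG]; exact Subgroup.map_mono hD.hDW
  have h : Setting (T : Subgroup G) WG D :=
    { twoT := T.2
      hWT := hWT
      hDW := hDle
      conjW := fun t ht w hw => (hmemW (⟨t, ht⟩ * ⟨w, hWT hw⟩ * ⟨t, ht⟩⁻¹)).2
        (hD.normW.conj_mem _ ((hmemW ⟨w, hWT hw⟩).1 hw) _)
      central := fun d hd w hw => congrArg Subtype.val
        (hD.central ⟨d, hDT hd⟩ ((hmemD _).1 hd) ⟨w, hWT hw⟩ ((hmemW _).1 hw))
      cent := fun t ht hall => (hmemW ⟨t, ht⟩).2 (hD.cent _ fun d hd => Subtype.ext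
        (hall d ((hmemD d).2 hd)))
      sq := fun w hw => (hmemD (⟨w, hWT hw⟩ * ⟨w, hWT hw⟩)).2 (hD.sq _ ((hmemW ⟨w, hWT hw⟩).1 hw))
      expD := fun d hd => congrArg Subtype.val (hD.expD ⟨d, hDT hd⟩ ((hmemD _).1 hd))
      small := fun U hU hU16 d hd => by
        refine hD.small (U.subgroupOf (T : Subgroup G)) (fun x hx => (hmemW x).1 (hU hx)) ?_
          ((hmemD ⟨d, hDT hd⟩).1 hd)
        rw [Subgroup.subgroupOf, Subgroup.relIndex_comap, ← hι, ← hWG]
        exact hU16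
      index := by
        rw [hWG, Subgroup.relIndex, Subgroup.subgroupOf, Subgroup.comap_map_eq_self_of_injective hinj]
        exact hD.index
      nonab := by
        obtain ⟨t₁, h1a, h1b⟩ := hD.move_a
        obtain ⟨t₂, h2a, h2b⟩ := hD.move_b
        refine ⟨t₁, t₁.2, t₂, t₂.2, fun hm => ?_⟩
        have hW' := (hmemW (t₁ * t₂ * t₁⁻¹ * t₂⁻¹)).1 hm
        have hbc := hD.central b hD.mem.2.2 _ hW'
        have h1b' : t₁⁻¹ * b * t₁⁻¹⁻¹ = b := by
          conv_lhs => rw [← h1b]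
          group
        have e : t₁ * t₂ * t₁⁻¹ * t₂⁻¹ * b * (t₁ * t₂ * t₁⁻¹ * t₂⁻¹)⁻¹ = b * c := by
          have i2 : t₂⁻¹ * b * t₂⁻¹⁻¹ = b * a⁻¹ := by
            calc t₂⁻¹ * b * t₂⁻¹⁻¹ = t₂⁻¹ * ((t₂ * b * t₂⁻¹) * (t₂ * a * t₂⁻¹)⁻¹) * t₂ * 1 := by
                  rw [h2a, h2b]; group
              _ = b * a⁻¹ := by group
          have i1 : t₁⁻¹ * a * t₁⁻¹⁻¹ = a * c⁻¹ := by
            calc t₁⁻¹ * a * t₁⁻¹⁻¹ = t₁⁻¹ * ((t₁ * a * t₁⁻¹) * (t₁ * c * t₁⁻¹)⁻¹) * t₁ := by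
                  rw [h1a, hD.fix_c]; group
              _ = a * c⁻¹ := by group
          have j2 : t₂ * c⁻¹ * t₂⁻¹ = c⁻¹ := by
            rw [show t₂ * c⁻¹ * t₂⁻¹ = (t₂ * c * t₂⁻¹)⁻¹ by group, hD.fix_c]
          have j1 : t₁ * c * t₁⁻¹ = c := hD.fix_c _
          calc t₁ * t₂ * t₁⁻¹ * t₂⁻¹ * b * (t₁ * t₂ * t₁⁻¹ * t₂⁻¹)⁻¹
              = t₁ * t₂ * (t₁⁻¹ * (t₂⁻¹ * b * t₂⁻¹⁻¹) * t₁⁻¹⁻¹) * t₂⁻¹ * t₁⁻¹ := by group
            _ = t₁ * t₂ * ((t₁⁻¹ * b * t₁⁻¹⁻¹) * (t₁⁻¹ * a * t₁⁻¹⁻¹)⁻¹) * t₂⁻¹ * t₁⁻¹ := by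
              rw [i2]; group
            _ = t₁ * ((t₂ * b * t₂⁻¹) * (t₂ * c⁻¹ * t₂⁻¹)⁻¹ * (t₂ * a * t₂⁻¹)⁻¹) * t₁⁻¹ := by
              rw [h1b', i1]; group
            _ = t₁ * (b * a * c * a⁻¹) * t₁⁻¹ := by rw [h2a, h2b, j2]; group
            _ = t₁ * b * t₁⁻¹ * (t₁ * c * t₁⁻¹) := by
              have hca : a * c = c * a := hD.central c hD.mem.1 a (hD.hDW hD.mem.2.1)
              rw [mul_assoc b a c, hca]; group
            _ = b * c := by rw [h1b, j1]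
        rw [mul_inv_eq_iff_eq_mul.2 hbc] at e
        exact hD.c_ne (mul_left_cancel (e.symm.trans (mul_one b).symm)) }
  have hbas : Basis8 D (c : G) a b :=
    { cardD := by rw [hDW, Subgroup.card_map_of_injective hinj]; exact hD.cardD
      expD := h.expD
      comm := fun x hx y hy => h.central y hy x (hDle hx)
      mem := ⟨(hmemD c).2 hD.mem.1, (hmemD a).2 hD.mem.2.1, (hmemD b).2 hD.mem.2.2⟩
      c_ne := fun e => hD.c_ne (Subtype.ext e)
      a_ne := ⟨fun e => hD.a_ne.1 (Subtype.ext e), fun e => hD.a_ne.2 (Subtype.ext e)⟩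
      b_ne := ⟨fun e => hD.b_ne.1 (Subtype.ext e), fun e => hD.b_ne.2.1 (Subtype.ext e),
        fun e => hD.b_ne.2.2.1 (Subtype.ext e), fun e => hD.b_ne.2.2.2 (Subtype.ext e)⟩ }
  refine main T h2 h hbas ?_ ?_ (fun t ht => congrArg Subtype.val (hD.fix_c ⟨t, ht⟩)) ?_ ?_
    (s := (s : G)) ?_
  · rw [hDW, hWG, hD.D_eq, Subgroup.map_commutator]
  · rw [hDW, hWG, Subgroup.relIndex_map_map_of_injective _ _ hinj]
    exact hD.bound
  · obtain ⟨t, h1, h2⟩ := hD.move_a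
    exact ⟨t, t.2, congrArg Subtype.val h1, congrArg Subtype.val h2⟩
  · obtain ⟨t, h1, h2⟩ := hD.move_b
    exact ⟨t, t.2, congrArg Subtype.val h1, congrArg Subtype.val h2⟩
  · intro v hv hall
    rcases hD.fix_W ⟨v, hWT hv⟩ ((hmemW _).1 hv) (fun t => (hmemD _).1 (hall t t.2)) with e | e
    · exact Or.inl ((hmemD _).2 e)
    · exact Or.inr ((hmemD _).2 e)

end CfsgLib.RudW34
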