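import Cfsg.Agent.Eq.Def_Solvable
import Cfsg.Agent.Eq.Def_CaseTheorems
import Cfsg.Agent.Constrained.Basic
import Cfsg.Prelude.Def_CaseTheorems
import Mathlib

/-!
A normal Sylow 2-subgroup centralized by the elements of odd order, and Burnside's transfer theorem
over a central 2-subgroup: the group is the product of its Sylow 2-subgroup and its odd core.
-/

set_option autoImplicit false

namespace CfsgLib.RudW34

open Cfsg

variable {C : Type*} [Group C] [Finite C]

/-- A normal Sylow 2-subgroup centralized by all elements of odd order splits off. -/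
theorem sup_oddCore_of_centralized (W : Subgroup C) [hWn : W.Normal] (hW : IsPGroup 2 W)
    (hidx : ¬ 2 ∣ W.index) (hcomm : ∀ σ : C, Odd (orderOf σ) → ∀ w ∈ W, σ * w = w * σ) :
    W ⊔ oddCore C = ⊤ := by
  haveI : Fact (Nat.Prime 2) := ⟨Nat.prime_two⟩
  have hcop : (Nat.card W).Coprime W.index := by
    obtain ⟨k, hk⟩ := IsPGroup.iff_card.1 hW
    rw [hk]
    exact Nat.Coprime.pow_left _ (Nat.prime_two.coprime_iff_not_dvd.2 hidx)
  obtain ⟨K, hK⟩ := Subgroup.exists_right_complement'_of_coprime hcop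
  have hKodd : ¬ 2 ∣ Nat.card K := hK.symm.index_eq_card ▸ hidx
  have hkw : ∀ k ∈ K, ∀ w ∈ W, k * w = w * k := fun k hk w hw => hcomm k (by
    refine Nat.not_even_iff_odd.1 fun he => hKodd ?_
    exact (even_iff_two_dvd.1 he).trans (Subgroup.orderOf_dvd_natCard K hk)) w hw
  have hKn : K.Normal := by
    rw [← Subgroup.normalizer_eq_top_iff, ← top_le_iff, ← hK.sup_eq_top]
    refine sup_le (fun w hw => ?_) Subgroup.le_normalizer
    refine Subgroup.mem_normalizer_fintype fun k hk => ?_
    show w * k * w⁻¹ ∈ K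
    rw [← hkw k hk w hw, mul_inv_cancel_right]
    exact hk
  exact top_le_iff.1 (hK.sup_eq_top.ge.trans
    (sup_le_sup_left (CfsgLib.Constrained.le_pPrimeCore_of_not_dvd hKn hKodd) _))

/-- The elements of odd order in a subgroup over a central 2-subgroup of odd index. -/
theorem le_sup_oddCore_of_central {L D : Subgroup C} [L.Normal] (hDL : D ≤ L) (hD : IsPGroup 2 D)
    (hidx : ¬ 2 ∣ D.relIndex L) (hcent : ∀ d ∈ D, ∀ x ∈ L, x * d = d * x) : L ≤ D ⊔ oddCore C := by
  haveI : (D.subgroupOf L).Normal := ⟨fun d hd x => by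
    rw [Subgroup.mem_subgroupOf] at hd ⊢
    push_cast
    rw [hcent d hd x x.2, mul_inv_cancel_right]
    exact hd⟩
  have h := sup_oddCore_of_centralized (D.subgroupOf L)
    (hD.of_equiv (Subgroup.subgroupOfEquivOfLe hDL).symm) hidx
    (fun σ _ w hw => Subtype.ext (hcent w hw σ σ.2))
  calc L = ((⊤ : Subgroup L)).map L.subtype := by rw [← MonoidHom.range_eq_map, Subgroup.range_subtype]
    _ = (D.subgroupOf L).map L.subtype ⊔ (oddCore L).map L.subtype := by rw [← Subgroup.map_sup, h]
    _ ≤ D ⊔ oddCore C := sup_le_sup (Subgroup.map_comap_le _ _)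
        (CfsgLib.Constrained.map_pPrimeCore_subgroup_le L)

/-- Burnside's theorem over a central subgroup. -/
theorem sup_oddCore_of_burnside (S : Sylow 2 C) {D : Subgroup C} (hDS : D ≤ (S : Subgroup C))
    (hcent : ∀ d ∈ D, ∀ x : C, x * d = d * x)
    (hnorm : ∀ x ∈ Subgroup.normalizer ((S : Subgroup C) : Set C), ∀ w ∈ (S : Subgroup C),
      x * w * x⁻¹ * w⁻¹ ∈ D) :
    (S : Subgroup C) ⊔ oddCore C = ⊤ := by
  haveI : Fact (Nat.Prime 2) := ⟨Nat.prime_two⟩
  haveI : D.Normal := ⟨fun d hd x => by rw [hcent d hd x, mul_inv_cancel_right]; exact hd⟩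
  set f := QuotientGroup.mk' D
  have hf : Function.Surjective f := QuotientGroup.mk'_surjective D
  set P := S.mapSurjective hf
  have hpre : ∀ x : C, f x ∈ (P : Subgroup (C ⧸ D)) → x ∈ (S : Subgroup C) := by
    intro x hx
    rw [Sylow.coe_mapSurjective, ← Subgroup.mem_comap, Subgroup.comap_map_eq, QuotientGroup.ker_mk',
      sup_eq_left.2 hDS] at hx
    exact hx
  have hP : Subgroup.normalizer (P : Set (C ⧸ D)) ≤ Subgroup.centralizer (P : Set (C ⧸ D)) := by
    intro q hq
    obtain ⟨x, rfl⟩ := hf q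
    have hxn : x ∈ Subgroup.normalizer ((S : Subgroup C) : Set C) := by
      refine Subgroup.mem_normalizer_fintype fun w hw => ?_
      refine hpre _ ?_
      rw [map_mul, map_mul, map_inv]
      exact (Subgroup.mem_normalizer_iff.1 hq _).1 ⟨w, hw, rfl⟩
    rw [Subgroup.mem_centralizer_iff]
    rintro _ ⟨w, hw, rfl⟩
    have h1 : f (x * w * x⁻¹ * w⁻¹) = 1 := (QuotientGroup.eq_one_iff _).2 (hnorm x hxn w hw)
    rw [map_mul, map_mul, map_mul, map_inv, map_inv, mul_inv_eq_one, mul_inv_eq_iff_eq_mul] at h1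
    exact h1.symm
  set τ := MonoidHom.transferSylow P hP
  have hcompl := MonoidHom.ker_transferSylow_isComplement' P hP
  set L := τ.ker.comap f
  have hDL : D ≤ L := fun d hd => by
    show f d ∈ τ.ker
    rw [show f d = 1 from (QuotientGroup.eq_one_iff d).2 hd]
    exact one_mem _
  have hrel : ¬ 2 ∣ D.relIndex L := by
    have e : D = (⊥ : Subgroup (C ⧸ D)).comap f := (QuotientGroup.ker_mk' D).symm
    conv in D.relIndex L => rw [e]
    rw [Subgroup.relIndex_comap, Subgroup.map_comap_eq_self_of_surjective hf, Subgroup.relIndex_bot_left]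
    exact MonoidHom.not_dvd_card_ker_transferSylow P hP
  have hLS : (⊤ : Subgroup C) ≤ (S : Subgroup C) ⊔ L := fun x _ => by
    have hx : f x ∈ ((τ.ker ⊔ (P : Subgroup (C ⧸ D)) : Subgroup (C ⧸ D)) : Set (C ⧸ D)) := by
      rw [hcompl.sup_eq_top]; trivial
    rw [Subgroup.normal_mul] at hx
    obtain ⟨l, hl, q, ⟨w, hw, rfl⟩, e⟩ := hx
    have hxw : x * w⁻¹ ∈ L := by
      show f (x * w⁻¹) ∈ τ.ker
      rw [map_mul, map_inv, ← e]
      simpa using hl
    simpa using mul_mem (Subgroup.mem_sup_right hxw) (Subgroup.mem_sup_left hw)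
  refine top_le_iff.1 (hLS.trans (sup_le le_sup_left ?_))
  exact (le_sup_oddCore_of_central hDL (S.2.to_le hDS) hrel fun d hd x _ => hcent d hd x).trans
    (sup_le_sup_right hDS _)

end CfsgLib.RudW34
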