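import Mathlib
import Cfsg.Agent.RudW34.Cocycle
import Cfsg.Agent.RudW34.Basic
import Cfsg.Agent.TransferTwo.CentralInvolution

/-!
The transfer onto a quotient `T → A` of exponent two killing `W` gets nothing from the cosets that
are not fixed by `W`; hence it agrees on `T` with the given map as soon as this extends to the
normalizer of `W`.
-/

set_option autoImplicit false

namespace CfsgLib.RudW34

variable {G : Type*} [Group G] [Finite G]

theorem exists_index_two {Y L : Subgroup G} (hY : IsPGroup 2 Y) (hLY : L ≤ Y) (hne : L ≠ Y) :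
    ∃ R, L ≤ R ∧ R ≤ Y ∧ R.relIndex Y = 2 := by
  have hlt : L.subgroupOf Y ≠ ⊤ := fun h => hne (le_antisymm hLY (Subgroup.subgroupOf_eq_top.1 h))
  obtain ⟨M, hM, hle⟩ := (eq_top_or_exists_le_coatom (L.subgroupOf Y)).resolve_left hlt
  refine ⟨M.map Y.subtype, ?_, Subgroup.map_subtype_le M, ?_⟩
  · intro x hx
    exact ⟨⟨x, hLY hx⟩, hle (show (⟨x, hLY hx⟩ : Y) ∈ L.subgroupOf Y from hx), rfl⟩
  · rw [Subgroup.relIndex, Subgroup.subgroupOf,
      Subgroup.comap_map_eq_self_of_injective Y.subtype_injective]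
    exact CfsgLib.TransferTwo.index_eq_two_of_coatom hY hM

variable {T W D : Subgroup G} {A : Type*} [CommGroup A]

theorem orb_eq_of_fix [Fintype (G ⧸ T)] {R U : Subgroup G} (hUR : U ≤ R) {q : G ⧸ T}
    (hcov : ∀ r ∈ R, ∃ w ∈ U, (w⁻¹ * r) • q = q) : orb R q = orb U q := by
  ext x
  simp only [mem_orb]
  refine ⟨fun ⟨r, hr, e⟩ => ?_, fun ⟨w, hw, e⟩ => ⟨w, hUR hw, e⟩⟩
  obtain ⟨w, hw, hf⟩ := hcov r hr
  exact ⟨w, hw, by rw [← e]; conv_lhs => rw [← hf, ← mul_smul, mul_inv_cancel_left]⟩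

namespace Setting

variable [Fintype (G ⧸ T)] (h : Setting T W D) (χ : T →* A) (hA : ∀ a : A, a * a = 1)
  (hχ : ∀ w (hw : w ∈ W), χ ⟨w, h.hWT hw⟩ = 1)
include h hA hχ

omit hχ in
/-- The elements of `D` contribute nothing on a nontrivial orbit. -/
theorem tau_D {Y : Subgroup G} (hY : Y ≤ W) {q : G ⧸ T} (hmove : ∃ y ∈ Y, y • q ≠ q) {d : G}
    (hd : d ∈ D) (hdY : d ∈ Y) : tau χ (orb Y q) d = 1 := by
  classical
  have hne : Y ⊓ MulAction.stabilizer G q ≠ Y := fun e => by
    obtain ⟨y, hy, hyq⟩ := hmove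
    exact hyq ((inf_eq_left.1 e) hy)
  obtain ⟨R, hLR, hRY, hR⟩ := exists_index_two (h.twoT.to_le (hY.trans h.hWT)) inf_le_left hne
  have hst : ∀ y ∈ Y, y • q = q → y ∈ R := fun y hy e => hLR ⟨hy, e⟩
  by_cases hdR : d ∈ R
  · obtain ⟨u, hu, huR⟩ : ∃ u ∈ Y, u ∉ R := by
      by_contra hcon; push Not at hcon
      rw [Subgroup.relIndex_eq_one.2 hcon] at hR; omega
    obtain ⟨he, hdis⟩ := orb_split hRY hR hu huR hst
    have hcu : u⁻¹ * d * u = d := by
      rw [mul_assoc, ← h.central d hd u (hY hu), inv_mul_cancel_left]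
    rw [tau, he, Finset.prod_union hdis]
    change tau χ _ d * tau χ _ d = 1
    rw [tau_image χ u d (fun x hx => orb_smul_mem (hcu.symm ▸ hdR) hx), hcu, hA]
  · obtain ⟨he, hdis⟩ := orb_split hRY hR hdY hdR hst
    rw [tau, he, Finset.prod_union hdis, Finset.prod_image fun a _ b _ e => MulAction.injective d e,
      ← Finset.prod_mul_distrib]
    refine Finset.prod_eq_one fun x _ => ?_
    rw [mul_comm, ← coc_mul, h.expD d hd, coc_one]

/-- The transfer from a subgroup of index two of `W` containing the stabiliser is trivial. -/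
theorem tau_half {U : Subgroup G} (hU : U ≤ W) (hi : U.relIndex W = 2) {q : G ⧸ T}
    (hst : ∀ w ∈ W, w • q = q → w ∈ U) : ∀ z ∈ U, tau χ (orb U q) z = 1 := by
  classical
  intro z hz
  by_cases hfix : ∀ y ∈ U, y • q = q
  · rw [orb_eq_singleton hfix, tau, Finset.prod_singleton,
      coc_fix χ (hfix z hz) (conj_mem_of_fix (hfix z hz))]
    refine hχ _ ?_
    have := h.half hU hi.le (g := q.out⁻¹)
      (fun b hb => by simpa using conj_mem_of_fix (hfix b hb)) z hz
    simpa using this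
  push Not at hfix
  have hne : U ⊓ MulAction.stabilizer G q ≠ U := fun e => by
    obtain ⟨y, hy, hyq⟩ := hfix
    exact hyq ((inf_eq_left.1 e) hy)
  obtain ⟨R, hLR, hRU, hR⟩ := exists_index_two (h.twoT.to_le (hU.trans h.hWT)) inf_le_left hne
  obtain ⟨u, hu, huR⟩ : ∃ u ∈ U, u ∉ R := by
    by_contra hcon; push Not at hcon
    rw [Subgroup.relIndex_eq_one.2 hcon] at hR; omega
  have hstR : ∀ y ∈ U, y • q = q → y ∈ R := fun y hy e => hLR ⟨hy, e⟩
  have hkey : ∀ d ∈ D, d ∈ R → tau χ (orb R q) d = 1 := by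
    intro d hd hdR
    by_cases hf : ∀ y ∈ R, y • q = q
    · rw [orb_eq_singleton hf]
      have h4 : R.relIndex W ≤ 8 := by
        rw [← Subgroup.relIndex_mul_relIndex R U W hRU hU, hR, hi]; norm_num
      have hmem := h.le_closure_sq (hRU.trans hU) h4 hd
      suffices d ∈ R ∧ tau χ {q} d = 1 from this.2
      refine Subgroup.closure_induction (p := fun x _ => x ∈ R ∧ tau χ {q} x = 1) ?_ ?_ ?_ ?_ hmem
      · rintro _ ⟨x, hx, rfl⟩
        refine ⟨mul_mem hx hx, ?_⟩
        rw [tau_mul χ x (fun p hp => by rw [Finset.mem_singleton] at hp ⊢; rw [hp]; exact hf x hx), hA]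
      · exact ⟨one_mem _, tau_one χ _⟩
      · rintro x y - - ⟨hx, hx1⟩ ⟨hy, hy1⟩
        refine ⟨mul_mem hx hy, ?_⟩
        rw [tau_mul χ x (fun p hp => by rw [Finset.mem_singleton] at hp ⊢; rw [hp]; exact hf y hy),
          hx1, hy1, mul_one]
      · rintro x - ⟨hx, hx1⟩
        refine ⟨inv_mem hx, ?_⟩
        have := tau_mul χ (S := {q}) x⁻¹ (h := x)
          (fun p hp => by rw [Finset.mem_singleton] at hp ⊢; rw [hp]; exact hf x hx)
        rw [inv_mul_cancel, tau_one, hx1, mul_one] at this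
        exact this.symm
    · push Not at hf
      exact h.tau_D χ hA (hRU.trans hU) hf hd hdR
  refine tau_orb_eq_one hRU hR χ hA hu huR hstR
    (hkey _ (h.sq u (hU hu)) (relTwo_sq hR hu)) (fun y hy => hkey _ ?_ ?_) z hz
  · rw [show y⁻¹ * (u⁻¹ * y * u) = ((y⁻¹ * y⁻¹) * ((y * u⁻¹) * (y * u⁻¹))) * (u * u) by group]
    exact mul_mem (mul_mem (h.sq _ (inv_mem (hU (hRU hy)))) (h.sq _ (mul_mem (hU (hRU hy))
      (inv_mem (hU hu))))) (h.sq u (hU hu))
  · exact mul_mem (inv_mem hy) (relTwo_conj hR hu hy (hRU hy))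

/-- On an orbit of cosets not fixed by `W` the transfer is trivial. -/
theorem tau_orb {q : G ⧸ T} (hmove : ∃ w ∈ W, w • q ≠ q) :
    ∀ (Y : Subgroup G), W ≤ Y → Y ≤ T → ∀ y ∈ Y, tau χ (orb Y q) y = 1 := by
  intro Y
  induction hn : Nat.card Y using Nat.strong_induction_on generalizing Y with | _ n ih => ?_
  intro hWY hYT
  set S := Y ⊓ MulAction.stabilizer G q
  have hY2 := h.twoT.to_le hYT
  by_cases hWS : W ⊔ S = Y
  · have hne : S ≠ Y := fun e => by
      obtain ⟨w, hw, hwq⟩ := hmove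
      exact hwq ((inf_eq_left.1 e) (hWY hw))
    obtain ⟨R, hSR, hRY, hR⟩ := exists_index_two hY2 inf_le_left hne
    obtain ⟨u, hu, huR⟩ : ∃ u ∈ W, u ∉ R := by
      by_contra hcon; push Not at hcon
      have : Y ≤ R := hWS ▸ sup_le hcon hSR
      rw [Subgroup.relIndex_eq_one.2 this] at hR; omega
    have hst : ∀ y ∈ Y, y • q = q → y ∈ R := fun y hy e => hSR ⟨hy, e⟩
    have hU : (R ⊓ W).relIndex W = 2 := by
      rw [Subgroup.inf_relIndex_right]
      refine Subgroup.index_eq_two_iff.2 ⟨⟨u⁻¹, inv_mem hu⟩, fun b => ?_⟩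
      simp only [Subgroup.mem_subgroupOf, Subgroup.coe_mul, xor_iff_not_iff']
      have := Subgroup.mul_mem_iff_of_index_two (H := R.subgroupOf Y) hR
        (a := ⟨b, hWY b.2⟩) (b := ⟨u⁻¹, hWY (inv_mem hu)⟩)
      simp only [Subgroup.mem_subgroupOf, Subgroup.coe_mul, inv_mem_iff] at this
      rw [this]
      tauto
    have hWnorm : Y ≤ Subgroup.normalizer (W : Set G) := fun y hy =>
      Subgroup.mem_normalizer_iff.2 fun w => ⟨fun hw => h.conjW y (hYT hy) w hw, fun hw => by
        have := h.conjW y⁻¹ (inv_mem (hYT hy)) _ hw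
        simpa [mul_assoc] using this⟩
    have horb : orb R q = orb (R ⊓ W) q := by
      refine orb_eq_of_fix inf_le_left fun r hr => ?_
      have hrY : r ∈ ((W ⊔ S : Subgroup G) : Set G) := by rw [hWS]; exact hRY hr
      rw [Subgroup.coe_mul_of_right_le_normalizer_left W S (le_trans inf_le_left hWnorm)] at hrY
      obtain ⟨w, hw, s, hs, rfl⟩ := hrY
      exact ⟨w, ⟨(Subgroup.mul_mem_cancel_right R (hSR hs)).1 hr, hw⟩,
        by rw [inv_mul_cancel_left]; exact hs.2⟩
    have hz : ∀ z ∈ R ⊓ W, tau χ (orb R q) z = 1 := fun z hz => by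
      rw [horb]
      exact h.tau_half χ hA hχ inf_le_right hU
        (fun w hw e => ⟨hst w (hWY hw) e, hw⟩) z hz
    refine tau_orb_eq_one hRY hR χ hA (hWY hu) huR hst
      (hz _ ⟨relTwo_sq hR (hWY hu), mul_mem hu hu⟩) (fun y hy => hz _ ⟨?_, ?_⟩)
    · exact R.mul_mem (R.inv_mem hy) (relTwo_conj hR (hWY hu) hy (hRY hy))
    · rw [← mul_assoc, ← mul_assoc]
      refine mul_mem ?_ hu
      simpa using h.conjW y⁻¹ (inv_mem (hYT (hRY hy))) u⁻¹ (inv_mem hu)
  · obtain ⟨R, hWR, hRY, hR⟩ := exists_index_two hY2 (sup_le hWY inf_le_left) hWS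
    obtain ⟨u, hu, huR⟩ : ∃ u ∈ Y, u ∉ R := by
      by_contra hcon; push Not at hcon
      rw [Subgroup.relIndex_eq_one.2 hcon] at hR; omega
    have hlt : Nat.card R < n := by
      rw [← hn]
      have hRne : R ≠ Y := fun e => huR (e ▸ hu)
      exact Set.Finite.card_lt_card (Set.toFinite _) (SetLike.coe_ssubset_coe.2 (lt_of_le_of_ne hRY hRne))
    have hz := ih _ hlt R rfl (le_sup_left.trans hWR) (hRY.trans hYT)
    exact tau_orb_eq_one hRY hR χ hA hu huR (fun y hy e => hWR (Subgroup.mem_sup_right ⟨hy, e⟩))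
      (hz _ (relTwo_sq hR hu)) (fun y hy => hz _ (mul_mem (inv_mem hy) (relTwo_conj hR hu hy (hRY hy))))

/-- `T` has no nontrivial map of exponent two killing `W` and extending to `N(W)`, unless it extends to `G`. -/
theorem tauHom_eq {T' : Sylow 2 G} (hT : (T' : Subgroup G) = T)
    (ψ : Subgroup.normalizer (W : Set G) →* A)
    (hψ : ∀ t (ht : t ∈ T) (hn : t ∈ Subgroup.normalizer (W : Set G)), ψ ⟨t, hn⟩ = χ ⟨t, ht⟩)
    {x : G} (hx : x ∈ T) : tauHom χ x = χ ⟨x, hx⟩ := by
  classical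
  have hTN : T ≤ (Subgroup.normalizer (W : Set G)) := fun t ht => Subgroup.mem_normalizer_iff.2 fun w =>
    ⟨fun hw => h.conjW t ht w hw, fun hw => by
      simpa [mul_assoc] using h.conjW t⁻¹ (inv_mem ht) _ hw⟩
  have hfix : ∀ q : G ⧸ T, (∀ w ∈ W, w • q = q) ↔ q.out ∈ (Subgroup.normalizer (W : Set G)) := by
    intro q
    constructor
    · intro hq
      have hall : ∀ w ∈ W, q.out⁻¹ * w * q.out⁻¹⁻¹ ∈ W :=
        h.weak fun w hw => by simpa using conj_mem_of_fix (hq w hw)
      refine inv_mem_iff.1 (?_ : q.out⁻¹ ∈ (Subgroup.normalizer (W : Set G)))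
      exact Subgroup.mem_normalizer_fintype hall
    · intro hq w hw
      refine fix_of_conj_mem (h.hWT ?_)
      simpa using (Subgroup.mem_normalizer_iff.1 (inv_mem hq) w).1 hw
  set F := Finset.univ.filter fun q : G ⧸ T => ∀ w ∈ W, w • q = q
  set F' := Finset.univ.filter fun q : G ⧸ T => ¬ ∀ w ∈ W, w • q = q
  -- moved cosets
  have hmoved : ∀ S : Finset (G ⧸ T), S ⊆ F' → (∀ t ∈ T, ∀ q ∈ S, t • q ∈ S) → tau χ S x = 1 := by
    intro S
    induction S using Finset.strongInduction with | _ S ih => ?_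
    intro hS hinv
    rcases S.eq_empty_or_nonempty with rfl | ⟨q, hq⟩
    · simp [tau]
    have hsub : orb T q ⊆ S := fun p hp => by
      obtain ⟨t, ht, rfl⟩ := mem_orb.1 hp; exact hinv t ht q hq
    have hmv : ∃ w ∈ W, w • q ≠ q := by
      simpa [F'] using (Finset.mem_filter.1 (hS hq)).2
    rw [tau, ← Finset.prod_sdiff hsub]
    change tau χ _ x * tau χ _ x = 1
    rw [h.tau_orb χ hA hχ hmv T h.hWT le_rfl x hx, mul_one]
    refine ih _ (Finset.sdiff_ssubset hsub ⟨q, mem_orb.2 ⟨1, one_mem _, one_smul _ _⟩⟩)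
      (Finset.sdiff_subset.trans hS) fun t ht p hp => ?_
    rw [Finset.mem_sdiff] at hp ⊢
    refine ⟨hinv t ht p hp.1, fun hc => hp.2 ?_⟩
    simpa using orb_smul_mem (inv_mem ht) hc
  have hF' : tau χ F' x = 1 := by
    refine hmoved _ subset_rfl fun t ht q hq => ?_
    simp only [F', Finset.mem_filter, Finset.mem_univ, true_and, hfix] at hq ⊢
    intro hc; apply hq
    have := sec_mem t q
    have e : q.out = (t⁻¹ * ((t • q).out * ((t • q).out⁻¹ * (t * q.out)))) := by group
    rw [e]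
    exact mul_mem (inv_mem (hTN ht)) (mul_mem hc (hTN this))
  -- fixed cosets
  let ψ' : G ⧸ T → A := fun q => if hq : q.out ∈ (Subgroup.normalizer (W : Set G)) then ψ ⟨q.out, hq⟩ else 1
  have hinvF : ∀ q ∈ F, x • q ∈ F := fun q hq => by
    simp only [F, Finset.mem_filter, Finset.mem_univ, true_and, hfix] at hq ⊢
    have e : (x • q).out = (x * q.out) * ((x • q).out⁻¹ * (x * q.out))⁻¹ := by group
    rw [e]
    exact mul_mem (mul_mem (hTN hx) hq) (inv_mem (hTN (sec_mem x q)))
  have hcoc : ∀ q ∈ F, coc χ x q * ψ' (x • q) = χ ⟨x, hx⟩ * ψ' q := fun q hq => by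
    have h2 := (hfix _).1 (Finset.mem_filter.1 (hinvF q hq)).2
    have h1 := (hfix _).1 (Finset.mem_filter.1 hq).2
    simp only [ψ', dif_pos h1, dif_pos h2]
    rw [coc, ← hψ _ (sec_mem x q) (hTN (sec_mem x q)), ← hψ x hx (hTN hx), mul_comm, ← map_mul, ← map_mul]
    refine congrArg ψ (Subtype.ext ?_)
    simp [mul_assoc]
  have hprod := Finset.prod_congr (s₁ := F) rfl hcoc
  rw [Finset.prod_mul_distrib, Finset.prod_mul_distrib, Finset.prod_const] at hprod
  have hre : ∏ q ∈ F, ψ' (x • q) = ∏ q ∈ F, ψ' q := by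
    conv_rhs => rw [← image_smul_eq hinvF]
    rw [Finset.prod_image fun a _ b _ e => MulAction.injective x e]
  rw [hre] at hprod
  have hcardF : Odd F.card := by
    have hidx : Odd ((T.subgroupOf (Subgroup.normalizer (W : Set G))).index) := by
      have h2 : ¬ 2 ∣ T.index := hT ▸ T'.not_dvd_index
      rw [Nat.odd_iff]
      have : ¬ 2 ∣ T.relIndex (Subgroup.normalizer (W : Set G)) := fun hc => h2 (hc.trans (Subgroup.relIndex_dvd_index_of_le hTN))
      change T.relIndex (Subgroup.normalizer (W : Set G)) % 2 = 1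
      omega
    convert hidx using 1
    let f : ↥(Subgroup.normalizer (W : Set G)) ⧸ T.subgroupOf (Subgroup.normalizer (W : Set G)) → G ⧸ T :=
      Quotient.map' (fun n => (n : G)) fun a b hab => by
        rw [QuotientGroup.leftRel_apply] at hab ⊢
        simpa [Subgroup.mem_subgroupOf] using hab
    have hf : Function.Injective f := by
      intro a b
      induction a using QuotientGroup.induction_on with | _ a => ?_
      induction b using QuotientGroup.induction_on with | _ b => ?_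
      intro e
      have e' : ((a : G) : G ⧸ T) = ((b : G) : G ⧸ T) := e
      rw [QuotientGroup.eq] at e' ⊢
      simpa [Subgroup.mem_subgroupOf] using e'
    haveI := Fintype.ofFinite (↥(Subgroup.normalizer (W : Set G)) ⧸ T.subgroupOf (Subgroup.normalizer (W : Set G)))
    have himg : F = Finset.univ.image f := by
      ext q
      simp only [F, Finset.mem_filter, Finset.mem_univ, true_and, hfix, Finset.mem_image]
      constructor
      · intro hq; exact ⟨QuotientGroup.mk ⟨q.out, hq⟩, QuotientGroup.out_eq' q⟩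
      · rintro ⟨a, rfl⟩
        induction a using QuotientGroup.induction_on with | _ a => ?_
        obtain ⟨t, ht⟩ := QuotientGroup.mk_out_eq_mul T (a : G)
        change ((a : G) : G ⧸ T).out ∈ (Subgroup.normalizer (W : Set G))
        rw [ht]
        exact mul_mem a.2 (hTN t.2)
    rw [himg, Finset.card_image_of_injective _ hf, Finset.card_univ, ← Nat.card_eq_fintype_card]
    rfl
  have hF : tau χ F x = χ ⟨x, hx⟩ := by
    obtain ⟨k, hk⟩ := hcardF
    rw [tau, mul_right_cancel hprod, hk, pow_succ, pow_mul, pow_two, hA, one_pow, one_mul]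
  change tau χ Finset.univ x = _
  rw [tau, ← Finset.prod_filter_mul_prod_filter_not Finset.univ fun q : G ⧸ T => ∀ w ∈ W, w • q = q]
  change tau χ F x * tau χ F' x = _
  rw [hF, hF', mul_one]

end Setting

end CfsgLib.RudW34
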